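import Cfsg.Agent.Fus.AbelianIndexP.Essential

/-!
Over a `p`-group with a unique abelian subgroup of index `p`, maps of nonabelian subgroups act on the
centre as automorphisms of `S`.
-/

set_option autoImplicit false

namespace CfsgLib.Fus.AbelianIndexP

open Cfsg Cfsg.FusionSystem CfsgLib.Fus CfsgLib.Fusion.Alperin

variable {Ω : Type*} [Group Ω] {S A : Subgroup Ω} {p : ℕ} [Fact p.Prime] [Finite S]
  {F : Cfsg.FusionSystem S}

/-- Acting on the centre as an automorphism of `S`. -/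
def Agree (F : Cfsg.FusionSystem S) (P : Subgroup Ω) (φ : P →* Ω) : Prop :=
  ∃ β ∈ F.autGroup S, ∀ y : P, ((y : Ω) ∈ cen S ↔ φ y ∈ cen S) ∧
    ∀ hy : (y : Ω) ∈ cen S, φ y = ((β ⟨y, hy.1⟩ : S) : Ω)

/-- Being nonabelian. -/
def NonComm (P : Subgroup Ω) : Prop := ∃ u ∈ P, ∃ v ∈ P, u * v ≠ v * u

theorem cen_map (β : MulAut S) {y : S} : ((β y : S) : Ω) ∈ cen S ↔ (y : Ω) ∈ cen S := by
  have key : ∀ (γ : MulAut S) (w : S), (w : Ω) ∈ cen S → ((γ w : S) : Ω) ∈ cen S := fun γ w hw => by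
    refine mem_cen.2 ⟨(γ w).2, fun s hs => ?_⟩
    obtain ⟨t, ht⟩ := γ.surjective ⟨s, hs⟩
    have h1 : t * w = w * t := Subtype.ext ((mem_cen.1 hw).2 t t.2)
    have h2 := congrArg Subtype.val (congrArg γ h1)
    rw [map_mul, map_mul, ht] at h2
    exact h2
  refine ⟨fun h => ?_, key β y⟩
  have := key β⁻¹ _ h
  rwa [MulAut.inv_def, MulEquiv.symm_apply_apply] at this

omit [Fact p.Prime] in
theorem nonComm_of_map {P Q : Subgroup Ω} {φ : P →* Ω} (hinj : Function.Injective φ) (h : NonComm P)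
    (hQ : ∀ x, φ x ∈ Q) : NonComm Q := by
  obtain ⟨u, hu, v, hv, huv⟩ := h
  refine ⟨φ ⟨u, hu⟩, hQ _, φ ⟨v, hv⟩, hQ _, fun e => huv ?_⟩
  rw [← map_mul, ← map_mul] at e
  exact congrArg Subtype.val (hinj e)

/-- Maps of nonabelian subgroups above a threshold agree on the centre with automorphisms of `S` as
soon as the automorphisms of essential such subgroups do. -/
theorem agree_of_hom (hS : IsPGroup p S) (hF : F.IsSaturated p) (n : ℕ)
    (haut : ∀ R, F.IsEssential p R → NonComm R → n < Nat.card R → ∀ α ∈ F.autGroup R,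
      Agree F R (R.subtype.comp α.toMonoidHom))
    {P : Subgroup Ω} {φ : P →* Ω} (hφ : φ ∈ F.Hom P) (hP : NonComm P) (hn : n < Nat.card P) :
    Agree F P φ := by
  refine hom_induction hS hF (C := fun P φ => NonComm P → n < Nat.card P → Agree F P φ)
    ?_ ?_ ?_ ?_ hφ hP hn
  · intro R hR α hα hRn hRc
    rcases hR.top_or_essential with rfl | he
    · exact ⟨α, hα, fun y => ⟨(cen_map α).symm, fun hy => rfl⟩⟩
    · exact haut R he hRn hRc α hα
  · intro P Q hPQ ψ hψ h hPn hPc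
    haveI : Finite Q := finite_of_le (hom_le F hψ)
    obtain ⟨u, hu, v, hv, huv⟩ := hPn
    obtain ⟨β, hβ, hy⟩ := h ⟨u, hPQ hu, v, hPQ hv, huv⟩ (hPc.trans_le (Subgroup.card_le_of_le hPQ))
    exact ⟨β, hβ, fun y => hy (Subgroup.inclusion hPQ y)⟩
  · intro P Q φ ψ hφ hψ hmem h1 h2 hPn hPc
    haveI : Finite Q := finite_of_le (hom_le F hψ)
    obtain ⟨β, hβ, hy⟩ := h1 hPn hPc
    have hcard : Nat.card P ≤ Nat.card Q :=
      Nat.card_le_card_of_injective (fun x => (⟨φ x, hmem x⟩ : Q))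
        fun a b e => F.injective_of_mem hφ (congrArg Subtype.val e)
    obtain ⟨β', hβ', hy'⟩ := h2 (nonComm_of_map (F.injective_of_mem hφ) hPn hmem) (hPc.trans_le hcard)
    refine ⟨β' * β, Subgroup.mul_mem _ hβ' hβ, fun y => ⟨(hy y).1.trans (hy' ⟨φ y, hmem y⟩).1, fun hyc => ?_⟩⟩
    have hc := (hy y).1.1 hyc
    show ψ ⟨φ y, hmem y⟩ = _
    rw [(hy' ⟨φ y, hmem y⟩).2 hc]
    exact congrArg (fun z : S => ((β' z : S) : Ω)) (Subtype.ext ((hy y).2 hyc))
  · intro P Q φ ψ hφ hψ hr hinvφ h hQn hQc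
    obtain ⟨ψ', -, hψ'⟩ := F.inv_mem hφ
    have hsurj : ∀ z ∈ Q, ∃ x : P, φ x = z := fun z hz => by
      obtain ⟨x, hx⟩ : z ∈ φ.range := hr.symm ▸ hz
      exact ⟨x, hx⟩
    have hPn : NonComm P := by
      obtain ⟨u, hu, v, hv, huv⟩ := hQn
      obtain ⟨a, rfl⟩ := hsurj u hu
      obtain ⟨b, rfl⟩ := hsurj v hv
      refine ⟨a, a.2, b, b.2, fun e => huv ?_⟩
      rw [← map_mul, ← map_mul]
      exact congrArg φ (Subtype.ext e)
    have hPc : n < Nat.card P := by
      rw [isConj_card (P := P) (Q := Q) ⟨φ, hφ, hr⟩]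
      exact hQc
    obtain ⟨β, hβ, hy⟩ := h hPn hPc
    refine ⟨β⁻¹, Subgroup.inv_mem _ hβ, fun z => ?_⟩
    obtain ⟨x, hx⟩ := hsurj z z.2
    have hψz : ψ z = x := by
      rw [← hinvφ x (hx ▸ z.2)]
      exact congrArg ψ (Subtype.ext hx.symm)
    refine ⟨?_, fun hz => ?_⟩
    · rw [hψz, ← hx]
      exact (hy x).1.symm
    · have hxc : (x : Ω) ∈ cen S := (hy x).1.2 (hx ▸ hz)
      have e : (⟨z, hz.1⟩ : S) = β ⟨x, hxc.1⟩ := Subtype.ext (hx.symm.trans ((hy x).2 hxc))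
      rw [hψz, e, MulAut.inv_def, MulEquiv.symm_apply_apply]

omit [Fact p.Prime] in
/-- The centre of a nonabelian subgroup containing `x` is cut out by the centre of `S`. -/
theorem cen_iff_central (h : Setting S A p) {R : Subgroup Ω} (hR : R ≤ S) (hRn : NonComm R) [Fact p.Prime] {x : Ω}
    (hxR : x ∈ R) (hxA : x ∉ A) (y : R) :
    (y : Ω) ∈ cen S ↔ ∀ u : R, u * y = y * u := by
  refine ⟨fun hy u => Subtype.ext ((mem_cen.1 hy).2 u (hR u.2)), fun hy => ?_⟩
  by_cases hyA : (y : Ω) ∈ A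
  · exact h.mem_cen_of_comm (hR hxR) hxA hyA (congrArg Subtype.val (hy ⟨x, hxR⟩)).symm
  · exfalso
    have hcA : R ⊓ A ≤ cen S := fun b hb =>
      h.mem_cen_of_comm (hR y.2) hyA hb.2 (congrArg Subtype.val (hy ⟨b, hb.1⟩))
    obtain ⟨u, hu, v, hv, huv⟩ := hRn
    apply huv
    obtain ⟨i, hi⟩ := h.exists_rep (hR hxR) hxA (hR hu)
    obtain ⟨j, hj⟩ := h.exists_rep (hR hxR) hxA (hR hv)
    have hu' := (mem_cen.1 (hcA ⟨R.mul_mem hu (R.zpow_mem hxR i), hi⟩)).2
    have hv' := (mem_cen.1 (hcA ⟨R.mul_mem hv (R.zpow_mem hxR j), hj⟩)).2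
    have c1 : Commute (u * x ^ i) (v * x ^ j) := (hu' _ (S.mul_mem (hR hv) (S.zpow_mem (hR hxR) j))).symm
    have c2 : Commute (u * x ^ i) x := (hu' x (hR hxR)).symm
    have c3 : Commute x (v * x ^ j) := hv' x (hR hxR)
    have hc : Commute (u * x ^ i * x ^ (-i)) (v * x ^ j * x ^ (-j)) :=
      (c1.mul_right (c2.zpow_right _)).mul_left ((c3.zpow_left _).mul_right ((Commute.refl x).zpow_zpow _ _))
    simpa [mul_assoc] using hc.eq

/-- An automorphism normalizing `Aut_S(Q)` extends to the normalizer. -/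
theorem exists_extend (hS : IsPGroup p S) (hF : F.IsSaturated p) {Q : Subgroup Ω}
    (hQ : F.IsFullyNormalized Q) {d : MulAut Q} (hd : d ∈ F.autGroup Q)
    (hn : ∀ c ∈ Cfsg.autInducedBy S Q, d * c * d⁻¹ ∈ Cfsg.autInducedBy S Q) :
    ∃ ψ ∈ F.Hom (normalizerIn S Q),
      ∀ (y : Q) (hy : (y : Ω) ∈ normalizerIn S Q), ψ ⟨y, hy⟩ = ((d y : Q) : Ω) := by
  have hφ := (mem_autGroup_iff F hQ.1).1 hd
  have hN : normalizerIn S Q ≤ extender S Q (Q.subtype.comp d.toMonoidHom) := fun g hg =>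
    mem_extender_of_congr hφ (range_subtype_comp d) hg.1 hg.2 (by
      rw [congr_subtype_comp]
      exact hn _ (conjAut_mem_autInducedBy hg.2 hg.1))
  obtain ⟨ψ, hψ, he⟩ := exists_ext (fullyNormalized_props hS hF hQ).2 hφ (range_subtype_comp d)
    (le_normalizerIn hQ.1) hN
  exact ⟨ψ, hψ, fun y hy => he y⟩

/-- An essential subgroup other than `A` that is nonabelian meets `A` in the second centre. -/
theorem inf_eq_cen2 (h : Setting S A p) {R : Subgroup Ω} (hR : R ≤ S) (hRn : NonComm R)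
    (sh : Shape S A R p) {x : Ω} (hxR : x ∈ R) (hxA : x ∉ A) : R ⊓ A = cen2 S := by
  refine sh.cases.resolve_left fun hc => ?_
  obtain ⟨u, hu, v, hv, huv⟩ := hRn
  have key := (cen_iff_central h hR ⟨u, hu, v, hv, huv⟩ hxR hxA ⟨x, hxR⟩).2 fun w => Subtype.ext ?_
  · exact hxA (h.cen_le key)
  obtain ⟨i, hi⟩ := h.exists_rep (hR hxR) hxA (hR w.2)
  have hz := (mem_cen.1 (hc.le ⟨R.mul_mem w.2 (R.zpow_mem hxR i), hi⟩)).2 x (hR hxR)
  show (w : Ω) * x = x * w
  have e : (w : Ω) = w * x ^ i * x ^ (-i) := by group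
  rw [e]
  calc (w : Ω) * x ^ i * x ^ (-i) * x = w * x ^ i * x * x ^ (-i) := by group
    _ = x * (w * x ^ i) * x ^ (-i) := by rw [hz]
    _ = x * (w * x ^ i * x ^ (-i)) := by group

variable (h : Setting S A p)
  (huniq : ∀ B : Subgroup Ω, B ≤ S → (∀ u ∈ B, ∀ v ∈ B, u * v = v * u) → (B.subgroupOf S).index = p → B = A)
  (hF : F.IsSaturated p)
include h huniq hF

/-- Automorphisms of nonabelian essential subgroups agree on the centre with automorphisms of `S`. -/
theorem agree_aut {R : Subgroup Ω} (hR : F.IsEssential p R) (hRn : NonComm R) {α : MulAut R}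
    (hα : α ∈ F.autGroup R) : Agree F R (R.subtype.comp α.toMonoidHom) := by
  have hRA : R ≠ A := by
    rintro rfl
    obtain ⟨u, hu, v, hv, huv⟩ := hRn
    exact huv (h.comm u hu v hv)
  have sh := shape h huniq hF hR hRA
  obtain ⟨x, hxR, hxA⟩ := exists_outside h hR hRA
  have hRS := hR.1.1
  haveI : Finite R := finite_of_le hRS
  haveI : Finite (MulAut R) := finite_mulAut R
  have hcen := cen_iff_central h hRS hRn hxR hxA
  have hpres : ∀ (d : MulAut R) (y : R), ((y : Ω) ∈ cen S) ↔ ((d y : R) : Ω) ∈ cen S := by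
    intro d y
    rw [hcen, hcen]
    refine ⟨fun hy u => ?_, fun hy u => d.injective (by rw [map_mul, map_mul, hy])⟩
    obtain ⟨u', rfl⟩ := d.surjective u
    rw [← map_mul, ← map_mul, hy]
  let C : Subgroup (F.autGroup R) :=
    { carrier := {b | ∀ y : R, (y : Ω) ∈ cen S → (b : MulAut R) y = y}
      one_mem' := fun y _ => rfl
      mul_mem' := fun {a b} ha hb y hy => by
        rw [Subgroup.coe_mul, MulAut.mul_apply, hb y hy, ha y hy]
      inv_mem' := fun {a} ha y hy => by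
        rw [Subgroup.coe_inv, MulAut.inv_def, MulEquiv.symm_apply_eq, ha y hy] }
  haveI hCn : C.Normal := ⟨fun b hb d y hy => by
    show ((d : MulAut R) * b * (d : MulAut R)⁻¹) y = y
    have hy' : (((d : MulAut R)⁻¹ y : R) : Ω) ∈ cen S := (hpres _ y).1 hy
    rw [MulAut.mul_apply, MulAut.mul_apply, hb _ hy', MulAut.inv_def, MulEquiv.apply_symm_apply]⟩
  obtain ⟨-, T, hT⟩ := (fullyNormalized_props h.pgroup hF hR.2.1).1
  have hTC : (T : Subgroup (F.autGroup R)) ≤ C := by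
    intro c hc y hy
    rw [hT] at hc
    obtain ⟨g, hg, hgc⟩ := mem_autInducedBy_iff.1 (hc : (c : MulAut R) ∈ Cfsg.autInducedBy S R)
    exact Subtype.ext ((hgc y).trans (conj_fix hg hy))
  have hsup := Sylow.normalizer_sup_eq_top (T.subtype hTC)
  rw [Sylow.coe_subtype, Subgroup.map_subgroupOf_eq_of_le hTC] at hsup
  have hmem : (⟨α, hα⟩ : F.autGroup R) ∈
      Subgroup.normalizer (((T : Subgroup (F.autGroup R)) : Set (F.autGroup R))) ⊔ C := by
    rw [hsup]
    exact Subgroup.mem_top _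
  obtain ⟨d, hd, c, hc, hdc⟩ := Subgroup.mem_sup_of_normal_right.1 hmem
  have hdn : ∀ e ∈ Cfsg.autInducedBy S R, (d : MulAut R) * e * (d : MulAut R)⁻¹ ∈ Cfsg.autInducedBy S R := by
    intro e he
    have he' : (⟨e, autInducedBy_le_autGroup F hRS he⟩ : F.autGroup R) ∈ (T : Subgroup (F.autGroup R)) := by
      rw [hT]; exact he
    have := (Subgroup.mem_normalizer_iff.1 hd _).1 he'
    rw [hT] at this
    exact this
  obtain ⟨ψ, hψ, he⟩ := exists_extend h.pgroup hF hR.2.1 d.2 hdn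
  have hRN := le_normalizerIn hRS
  have hNn : NonComm (normalizerIn S R) := by
    obtain ⟨u, hu, v, hv, huv⟩ := hRn
    exact ⟨u, hRN hu, v, hRN hv, huv⟩
  have hcR : Nat.card R = p * Nat.card (cen2 S) := by
    rw [h.card_eq hxA hRS hxR, inf_eq_cen2 h hRS hRn sh hxR hxA]
  have hlt : p * Nat.card (cen2 S) < Nat.card (normalizerIn S R) := by
    rw [sh.card_normalizer, ← hcR]
    exact lt_mul_of_one_lt_left Nat.card_pos (Fact.out : p.Prime).one_lt
  obtain ⟨β, hβ, hy⟩ := agree_of_hom h.pgroup hF (p * Nat.card (cen2 S)) (fun R' hR' hR'n hlt' => by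
    exfalso
    have hR'A : R' ≠ A := by
      rintro rfl
      obtain ⟨u, hu, v, hv, huv⟩ := hR'n
      exact huv (h.comm u hu v hv)
    obtain ⟨x', hx', hx'A⟩ := exists_outside h hR' hR'A
    have := inf_eq_cen2 h hR'.1.1 hR'n (shape h huniq hF hR' hR'A) hx' hx'A
    rw [h.card_eq hx'A hR'.1.1 hx', this] at hlt'
    exact lt_irrefl _ hlt') hψ hNn hlt
  refine ⟨β, hβ, fun y => ⟨hpres α y, fun hyc => ?_⟩⟩
  have hcy : (c : MulAut R) y = y := hc y hyc
  have e : α y = (d : MulAut R) y := by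
    rw [show α = (d : MulAut R) * (c : MulAut R) from (congrArg Subtype.val hdc).symm, MulAut.mul_apply, hcy]
  show ((α y : R) : Ω) = _
  rw [e, ← he y (hRN y.2)]
  exact (hy ⟨y, hRN y.2⟩).2 hyc

/-- Every map of a nonabelian subgroup agrees on the centre with an automorphism of `S`. -/
theorem agree_all {P : Subgroup Ω} {φ : P →* Ω} (hφ : φ ∈ F.Hom P) (hP : NonComm P) : Agree F P φ := by
  haveI : Finite P := finite_of_le (hom_le F hφ)
  exact agree_of_hom h.pgroup hF 0 (fun R hR hRn _ α hα => agree_aut h huniq hF hR hRn hα) hφ hP Nat.card_pos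

end CfsgLib.Fus.AbelianIndexP
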