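import Mathlib

/-!
Finite `p`-groups `S` with an abelian subgroup `A` of index `p`: the endomorphism `b ↦ [b, x]` of
`A`, the centre, the second centre and the commutator subgroup.
-/

set_option autoImplicit false

namespace CfsgLib.Fus.AbelianIndexP

open Subgroup

variable {Ω : Type*} [Group Ω] {S A : Subgroup Ω} {p : ℕ} [Fact p.Prime]

/-- The cardinality of a preimage. -/
theorem card_comap_eq {G H : Type*} [Group G] [Group H] [Finite G] (f : G →* H) (K : Subgroup H) :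
    Nat.card (K.comap f) = Nat.card f.ker * Nat.card (f.range ⊓ K : Subgroup H) := by
  have h1 : (f.comp (K.comap f).subtype).range = f.range ⊓ K := by
    rw [MonoidHom.range_comp, Subgroup.range_subtype, Subgroup.map_comap_eq]
  have h2 : Nat.card (f.comp (K.comap f).subtype).ker = Nat.card f.ker := by
    rw [← MonoidHom.comap_ker]
    exact Nat.card_congr (Subgroup.subgroupOfEquivOfLe (fun x hx => by
      show f x ∈ K
      rw [(hx : f x = 1)]
      exact K.one_mem)).toEquiv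
  rw [← Subgroup.card_mul_index (f.comp (K.comap f).subtype).ker, Subgroup.index_ker, h2, h1]

/-- The cardinality of an image. -/
theorem card_eq_ker_mul_map {G H : Type*} [Group G] [Group H] (f : G →* H) (K : Subgroup G) :
    Nat.card K = Nat.card (K ⊓ f.ker : Subgroup G) * Nat.card (K.map f) := by
  have h1 : (f.comp K.subtype).range = K.map f := by
    rw [MonoidHom.range_comp, Subgroup.range_subtype]
  have h2 : Nat.card (f.comp K.subtype).ker = Nat.card (K ⊓ f.ker : Subgroup G) := by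
    rw [← MonoidHom.comap_ker]
    show Nat.card (f.ker.subgroupOf K) = _
    rw [← Subgroup.inf_subgroupOf_right, inf_comm]
    exact Nat.card_congr (Subgroup.subgroupOfEquivOfLe inf_le_left).toEquiv
  rw [← Subgroup.card_mul_index (f.comp K.subtype).ker, Subgroup.index_ker, h2, h1]

/-- The centre of `S`. -/
def cen (S : Subgroup Ω) : Subgroup Ω := S ⊓ Subgroup.centralizer (S : Set Ω)

theorem mem_cen {z : Ω} : z ∈ cen S ↔ z ∈ S ∧ ∀ s ∈ S, s * z = z * s :=
  ⟨fun h => ⟨h.1, fun s hs => h.2 s hs⟩, fun h => ⟨h.1, fun s hs => h.2 s hs⟩⟩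

/-- The second centre of `S`, as a subgroup of the ambient group. -/
def cen2 (S : Subgroup Ω) : Subgroup Ω := (Subgroup.upperCentralSeries ↥S 2).map S.subtype

theorem mem_cen2 {s : Ω} : s ∈ cen2 S ↔ s ∈ S ∧ ∀ t ∈ S, s * t * s⁻¹ * t⁻¹ ∈ cen S := by
  constructor
  · rintro ⟨s, hs, rfl⟩
    refine ⟨s.2, fun t ht => ?_⟩
    have h := Subgroup.mem_upperCentralSeries_succ_iff.1 hs ⟨t, ht⟩
    rw [Subgroup.upperCentralSeries_one] at h
    refine mem_cen.2 ⟨S.mul_mem (S.mul_mem (S.mul_mem s.2 ht) (S.inv_mem s.2)) (S.inv_mem ht), fun u hu => ?_⟩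
    exact congrArg Subtype.val (Subgroup.mem_center_iff.1 h ⟨u, hu⟩)
  · rintro ⟨hs, h⟩
    refine ⟨⟨s, hs⟩, Subgroup.mem_upperCentralSeries_succ_iff.2 fun t => ?_, rfl⟩
    rw [Subgroup.upperCentralSeries_one]
    exact Subgroup.mem_center_iff.2 fun u => Subtype.ext ((mem_cen.1 (h t t.2)).2 u u.2)

/-- `S` is a nonabelian finite `p`-group with an abelian subgroup `A` of index `p`. -/
structure Setting (S A : Subgroup Ω) (p : ℕ) : Prop where
  finite : Finite S
  pgroup : IsPGroup p S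
  le : A ≤ S
  comm : ∀ a ∈ A, ∀ b ∈ A, a * b = b * a
  idx : (A.subgroupOf S).index = p
  na : ∃ s ∈ S, ∃ t ∈ S, s * t ≠ t * s

namespace Setting

variable (h : Setting S A p)
include h

theorem normal : (A.subgroupOf S).Normal := by
  haveI := h.finite
  refine Subgroup.normal_of_index_eq_minFac_card ?_
  obtain ⟨n, hn⟩ := IsPGroup.iff_card.1 h.pgroup
  rw [h.idx, hn, (Fact.out : p.Prime).pow_minFac]
  rintro rfl
  obtain ⟨s, hs, t, ht, hst⟩ := h.na
  haveI : Subsingleton S := (Nat.card_eq_one_iff_unique.1 (by simpa using hn)).1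
  have := Subsingleton.elim (⟨s, hs⟩ : S) ⟨t, ht⟩
  obtain rfl : s = t := congrArg Subtype.val this
  exact hst rfl

theorem conj_mem {s b : Ω} (hs : s ∈ S) (hb : b ∈ A) : s * b * s⁻¹ ∈ A :=
  h.normal.conj_mem ⟨b, h.le hb⟩ hb ⟨s, hs⟩

theorem exists_rep {x s : Ω} (hx : x ∈ S) (hxA : x ∉ A) (hs : s ∈ S) : ∃ i : ℤ, s * x ^ i ∈ A := by
  haveI := h.normal
  haveI := h.finite
  have hc : Nat.card (S ⧸ A.subgroupOf S) = p := h.idx
  have hx1 : ((⟨x, hx⟩ : S) : S ⧸ A.subgroupOf S) ≠ 1 := fun e =>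
    hxA (Subgroup.mem_subgroupOf.1 ((QuotientGroup.eq_one_iff (⟨x, hx⟩ : S)).1 e))
  obtain ⟨i, hi⟩ := Subgroup.mem_zpowers_iff.1
    (mem_zpowers_of_prime_card hc (g' := ((⟨s, hs⟩ : S) : S ⧸ A.subgroupOf S)) hx1)
  refine ⟨-i, ?_⟩
  have : ((⟨s, hs⟩ * ⟨x, hx⟩ ^ (-i) : S) : S ⧸ A.subgroupOf S) = 1 := by
    rw [QuotientGroup.mk_mul, QuotientGroup.mk_zpow, ← hi, ← zpow_add, add_neg_cancel, zpow_zero]
  simpa [Subgroup.mem_subgroupOf] using (QuotientGroup.eq_one_iff _).1 this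

/-- A subgroup containing `A` and an element outside contains `S`. -/
theorem gen_le {x : Ω} (hx : x ∈ S) (hxA : x ∉ A) {K : Subgroup Ω} (hK : A ≤ K) (hxK : x ∈ K) :
    S ≤ K := by
  intro s hs
  obtain ⟨i, hi⟩ := h.exists_rep hx hxA hs
  have := K.mul_mem (hK hi) (K.zpow_mem hxK (-i))
  simpa [mul_assoc, ← zpow_add] using this

/-- Splitting a subgroup containing `x`. -/
theorem eq_sup {x : Ω} (hxA : x ∉ A) {H : Subgroup Ω} (hH : H ≤ S) (hxH : x ∈ H) :
    H = (H ⊓ A) ⊔ zpowers x := by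
  refine le_antisymm (fun s hs => ?_) (sup_le inf_le_left (zpowers_le.2 hxH))
  obtain ⟨i, hi⟩ := h.exists_rep (hH hxH) hxA (hH hs)
  have h1 : s * x ^ i ∈ H ⊓ A := ⟨H.mul_mem hs (H.zpow_mem hxH i), hi⟩
  have := Subgroup.mul_mem _ (Subgroup.mem_sup_left (T := zpowers x) h1)
    (Subgroup.mem_sup_right (S := H ⊓ A) (zpow_mem (mem_zpowers x) (-i)))
  simpa [mul_assoc, ← zpow_add] using this

theorem card_eq {x : Ω} (hxA : x ∉ A) {H : Subgroup Ω} (hH : H ≤ S) (hxH : x ∈ H) :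
    Nat.card H = p * Nat.card (H ⊓ A : Subgroup Ω) := by
  haveI := h.finite
  haveI : Finite H := Finite.of_injective _ (Subgroup.inclusion_injective hH)
  have hp : (Fact.out : p.Prime) = Fact.out := rfl
  have hmul := Subgroup.card_mul_index (A.subgroupOf H)
  have hc : Nat.card (A.subgroupOf H) = Nat.card (H ⊓ A : Subgroup Ω) := by
    rw [← Subgroup.inf_subgroupOf_right, inf_comm]
    exact Nat.card_congr (Subgroup.subgroupOfEquivOfLe inf_le_left).toEquiv
  have hle : (A.subgroupOf H).index ≤ p := by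
    have hne : A.relIndex S ≠ 0 := by
      show (A.subgroupOf S).index ≠ 0
      rw [h.idx]; exact (Fact.out : p.Prime).ne_zero
    have h' : A.relIndex H ≤ A.relIndex S := Subgroup.relIndex_le_of_le_right hH hne
    exact h'.trans_eq h.idx
  have hne1 : (A.subgroupOf H).index ≠ 1 := fun e =>
    hxA ((Subgroup.index_eq_one.1 e).ge (Subgroup.mem_top (⟨x, hxH⟩ : H)))
  obtain ⟨n, hn⟩ := IsPGroup.iff_card.1 (h.pgroup.to_le hH)
  obtain ⟨j, -, hj⟩ := (Nat.dvd_prime_pow (Fact.out : p.Prime)).1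
    (hn ▸ (A.subgroupOf H).index_dvd_card)
  have hj1 : j = 1 := by
    rcases j with - | - | j
    · exact absurd hj (by simpa using hne1)
    · rfl
    · exfalso
      rw [hj] at hle
      have hlt : p ^ 1 < p ^ (j + 1 + 1) := Nat.pow_lt_pow_right (Fact.out : p.Prime).one_lt (by omega)
      rw [pow_one] at hlt
      omega
  rw [hj, hj1, pow_one, hc] at hmul
  rw [← hmul, mul_comm]

theorem card_S : Nat.card S = p * Nat.card A := by
  have := Subgroup.card_mul_index (A.subgroupOf S)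
  rw [h.idx, Nat.card_congr (Subgroup.subgroupOfEquivOfLe h.le).toEquiv] at this
  rw [← this, mul_comm]

theorem cen_le : cen S ≤ A := by
  intro z hz
  by_contra hzA
  obtain ⟨hzS, hzc⟩ := mem_cen.1 hz
  obtain ⟨s, hs, t, ht, hst⟩ := h.na
  have hA : ∀ a ∈ A, ∀ t ∈ S, a * t = t * a := fun a ha t ht => by
    have h1 : S ≤ Subgroup.centralizer {a} := h.gen_le hzS hzA
      (fun b hb => Subgroup.mem_centralizer_iff.2 (by rintro _ rfl; exact h.comm _ ha _ hb))
      (Subgroup.mem_centralizer_iff.2 (by rintro _ rfl; exact hzc _ (h.le ha)))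
    exact Subgroup.mem_centralizer_iff.1 (h1 ht) a rfl
  have h1 : S ≤ Subgroup.centralizer {t} := h.gen_le hzS hzA
    (fun b hb => Subgroup.mem_centralizer_iff.2 (by rintro _ rfl; exact (hA b hb _ ht).symm))
    (Subgroup.mem_centralizer_iff.2 (by rintro _ rfl; exact hzc _ ht))
  exact hst (Subgroup.mem_centralizer_iff.1 (h1 hs) t rfl).symm

/-- An element of `A` commuting with an element outside is central. -/
theorem mem_cen_of_comm {x b : Ω} (hx : x ∈ S) (hxA : x ∉ A) (hb : b ∈ A) (hc : b * x = x * b) :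
    b ∈ cen S := by
  refine mem_cen.2 ⟨h.le hb, fun s hs => ?_⟩
  have h1 : S ≤ Subgroup.centralizer {b} := h.gen_le hx hxA
    (fun a ha => Subgroup.mem_centralizer_iff.2 (by rintro _ rfl; exact h.comm _ hb _ ha))
    (Subgroup.mem_centralizer_iff.2 (by rintro _ rfl; exact hc))
  exact (Subgroup.mem_centralizer_iff.1 (h1 hs) b rfl).symm

/-- Commutators fall into a normal subgroup when those with the generators do. -/
theorem comm_mem_of_gen {K : Subgroup Ω} (hK : ∀ s ∈ S, ∀ k ∈ K, s * k * s⁻¹ ∈ K) {x : Ω} (hx : x ∈ S)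
    (hxA : x ∉ A) {u : Ω} (hA : ∀ a ∈ A, u * a * u⁻¹ * a⁻¹ ∈ K) (hux : u * x * u⁻¹ * x⁻¹ ∈ K) :
    ∀ t ∈ S, u * t * u⁻¹ * t⁻¹ ∈ K := by
  let L : Subgroup Ω :=
    { carrier := {t | t ∈ S ∧ u * t * u⁻¹ * t⁻¹ ∈ K}
      one_mem' := ⟨S.one_mem, by simp⟩
      mul_mem' := by
        rintro a b ⟨ha, ha'⟩ ⟨hb, hb'⟩
        refine ⟨S.mul_mem ha hb, ?_⟩
        have e : u * (a * b) * u⁻¹ * (a * b)⁻¹ = (u * a * u⁻¹ * a⁻¹) * (a * (u * b * u⁻¹ * b⁻¹) * a⁻¹) := by
          group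
        rw [e]
        exact K.mul_mem ha' (hK a ha _ hb')
      inv_mem' := by
        rintro a ⟨ha, ha'⟩
        refine ⟨S.inv_mem ha, ?_⟩
        have e : u * a⁻¹ * u⁻¹ * a⁻¹⁻¹ = a⁻¹ * (u * a * u⁻¹ * a⁻¹)⁻¹ * a⁻¹⁻¹ := by group
        rw [e]
        exact hK _ (S.inv_mem ha) _ (K.inv_mem ha') }
  intro t ht
  exact (h.gen_le hx hxA (K := L) (fun a ha => ⟨h.le ha, hA a ha⟩) ⟨hx, hux⟩ ht).2

/-- `b ↦ [b, x]` on `A`. -/
def sigma {x : Ω} (hx : x ∈ S) : A →* A :=
  MonoidHom.mk' (fun b => ⟨(b : Ω) * x * (b : Ω)⁻¹ * x⁻¹, by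
      have := A.mul_mem b.2 (h.conj_mem hx (A.inv_mem b.2))
      simpa [mul_assoc] using this⟩) fun b c => Subtype.ext (by
    show (b : Ω) * c * x * ((b : Ω) * c)⁻¹ * x⁻¹ =
      ((b : Ω) * x * (b : Ω)⁻¹ * x⁻¹) * ((c : Ω) * x * (c : Ω)⁻¹ * x⁻¹)
    have hc : (c : Ω) * x * (c : Ω)⁻¹ * x⁻¹ ∈ A := by
      have := A.mul_mem c.2 (h.conj_mem hx (A.inv_mem c.2))
      simpa [mul_assoc] using this
    have hb : (b : Ω) * x * (b : Ω)⁻¹ * x⁻¹ ∈ A := by
      have := A.mul_mem b.2 (h.conj_mem hx (A.inv_mem b.2))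
      simpa [mul_assoc] using this
    rw [h.comm _ hb _ hc]
    calc (b : Ω) * c * x * ((b : Ω) * c)⁻¹ * x⁻¹
        = (b : Ω) * ((c : Ω) * x * (c : Ω)⁻¹ * x⁻¹) * (x * (b : Ω)⁻¹ * x⁻¹) := by group
      _ = ((c : Ω) * x * (c : Ω)⁻¹ * x⁻¹) * (b : Ω) * (x * (b : Ω)⁻¹ * x⁻¹) := by
          rw [h.comm _ b.2 _ hc]
      _ = _ := by group)

omit [Fact p.Prime] in
theorem sigma_val {x : Ω} [Fact p.Prime] (hx : x ∈ S) (b : A) :
    ((h.sigma hx b : A) : Ω) = (b : Ω) * x * (b : Ω)⁻¹ * x⁻¹ := rfl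

theorem ker_sigma {x : Ω} (hx : x ∈ S) (hxA : x ∉ A) : (h.sigma hx).ker = (cen S).subgroupOf A := by
  ext b
  rw [MonoidHom.mem_ker, Subgroup.mem_subgroupOf, Subtype.ext_iff, h.sigma_val hx, Subgroup.coe_one,
    mul_inv_eq_one, mul_inv_eq_iff_eq_mul]
  exact ⟨fun e => h.mem_cen_of_comm hx hxA b.2 e, fun e => ((mem_cen.1 e).2 x hx).symm⟩

theorem card_ker {x : Ω} (hx : x ∈ S) (hxA : x ∉ A) :
    Nat.card (h.sigma hx).ker = Nat.card (cen S) := by
  rw [h.ker_sigma hx hxA]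
  exact Nat.card_congr (Subgroup.subgroupOfEquivOfLe h.cen_le).toEquiv

theorem mem_cen2_iff {x b : Ω} (hx : x ∈ S) (hxA : x ∉ A) (hb : b ∈ A) :
    b ∈ cen2 S ↔ b * x * b⁻¹ * x⁻¹ ∈ cen S := by
  refine ⟨fun e => (mem_cen2.1 e).2 x hx, fun e => mem_cen2.2 ⟨h.le hb, ?_⟩⟩
  refine h.comm_mem_of_gen (fun s hs k hk => ?_) hx hxA (fun a ha => ?_) e
  · rw [(mem_cen.1 hk).2 s hs, mul_inv_cancel_right]
    exact hk
  · rw [h.comm _ hb _ ha]
    simp

/-- The commutator subgroup consists of the commutators with `x`. -/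
theorem commutator_eq {x : Ω} (hx : x ∈ S) (hxA : x ∉ A) :
    (commutator ↥S).map S.subtype = (h.sigma hx).range.map A.subtype := by
  set D := (h.sigma hx).range.map A.subtype with hD
  have hDA : ∀ d ∈ D, d ∈ A := by
    rintro _ ⟨d, -, rfl⟩
    exact d.2
  have hDn : ∀ s ∈ S, ∀ d ∈ D, s * d * s⁻¹ ∈ D := by
    let N : Subgroup Ω := Subgroup.normalizer (D : Set Ω)
    haveI := h.finite
    haveI : Finite A := Finite.of_injective _ (Subgroup.inclusion_injective h.le)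
    haveI : Finite D := Finite.of_injective _ (Subgroup.inclusion_injective (fun d hd => hDA d hd))
    have hx' : ∀ d ∈ D, x * d * x⁻¹ ∈ D := by
      rintro _ ⟨_, ⟨b, rfl⟩, rfl⟩
      refine ⟨h.sigma hx ⟨x * b * x⁻¹, h.conj_mem hx b.2⟩, ⟨_, rfl⟩, ?_⟩
      show x * b * x⁻¹ * x * (x * b * x⁻¹)⁻¹ * x⁻¹ = x * ((b : Ω) * x * (b : Ω)⁻¹ * x⁻¹) * x⁻¹
      group
    have hxN : x ∈ N := by
      have he : D.map (MulAut.conj x).toMonoidHom = D := by
        refine Subgroup.eq_of_le_of_card_ge ?_ ?_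
        · rintro _ ⟨d, hd, rfl⟩
          exact hx' d hd
        · rw [Subgroup.card_map_of_injective (K := D) (f := (MulAut.conj x).toMonoidHom) (MulAut.conj x).injective]
      refine Subgroup.mem_normalizer_iff.2 fun d => ⟨hx' d, fun hd => ?_⟩
      rw [← he] at hd
      obtain ⟨d', hd', e⟩ := hd
      exact (mul_left_cancel (mul_right_cancel e)) ▸ hd'
    have hAN : A ≤ N := fun a ha => Subgroup.mem_normalizer_iff.2 fun d => ⟨fun hd => by
      rw [h.comm _ ha _ (hDA d hd), mul_inv_cancel_right]; exact hd, fun hd => by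
      have hd' := hDA _ hd
      have : d ∈ A := by simpa [mul_assoc] using A.mul_mem (A.mul_mem (A.inv_mem ha) hd') ha
      rwa [h.comm _ ha _ this, mul_inv_cancel_right] at hd⟩
    intro s hs d hd
    exact (Subgroup.mem_normalizer_iff.1 (h.gen_le hx hxA hAN hxN hs) d).1 hd
  refine le_antisymm ?_ ?_
  · have hall : ∀ s ∈ S, ∀ t ∈ S, s * t * s⁻¹ * t⁻¹ ∈ D := by
      have hxall : ∀ t ∈ S, x * t * x⁻¹ * t⁻¹ ∈ D := by
        refine h.comm_mem_of_gen hDn hx hxA (fun a ha => ?_) (by simp)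
        refine ⟨(h.sigma hx ⟨a, ha⟩)⁻¹, Subgroup.inv_mem _ ⟨_, rfl⟩, ?_⟩
        show (a * x * a⁻¹ * x⁻¹)⁻¹ = x * a * x⁻¹ * a⁻¹
        group
      intro s hs
      refine h.comm_mem_of_gen hDn hx hxA (fun a ha => ?_) ?_
      · have hsa : ∀ t ∈ S, a * t * a⁻¹ * t⁻¹ ∈ D :=
          h.comm_mem_of_gen hDn hx hxA (fun c hc => by
            rw [h.comm _ ha _ hc]
            simp) ⟨h.sigma hx ⟨a, ha⟩, ⟨_, rfl⟩, rfl⟩
        have := D.inv_mem (hsa s hs)
        simpa [mul_assoc] using this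
      · have := D.inv_mem (hxall s hs)
        simpa [mul_assoc] using this
    rw [Subgroup.map_subtype_commutator, Subgroup.commutator_le]
    intro s hs t ht
    rw [commutatorElement_def]
    exact hall s hs t ht
  · rintro _ ⟨_, ⟨b, rfl⟩, rfl⟩
    rw [Subgroup.map_subtype_commutator]
    exact Subgroup.commutator_mem_commutator (h.le b.2) hx

end Setting

end CfsgLib.Fus.AbelianIndexP
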