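import Cfsg.Agent.Fus.AbelianIndexP.Basic

/-!
The descending chain of iterated commutators with `x` in an abelian subgroup of index `p`, when the
second centre is `p` times as large as the centre.
-/

set_option autoImplicit false

namespace CfsgLib.Fus.AbelianIndexP

namespace Setting

variable {Ω : Type*} [Group Ω] {S A : Subgroup Ω} {p : ℕ} [Fact p.Prime] (h : Setting S A p)
  {x : Ω} (hx : x ∈ S) (hxA : x ∉ A) (h2A : cen2 S ≤ A)
  (hc2 : Nat.card (cen2 S) = p * Nat.card (cen S))
include h hx hxA h2A hc2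

theorem card_range_inf : Nat.card (((h.sigma hx).range ⊓ (cen S).subgroupOf A : Subgroup A)) = p := by
  haveI := h.finite
  haveI : Finite A := Finite.of_injective _ (Subgroup.inclusion_injective h.le)
  have he : cen2 S = (((cen S).subgroupOf A).comap (h.sigma hx)).map A.subtype := by
    ext b
    constructor
    · intro hb
      exact ⟨⟨b, h2A hb⟩, (h.mem_cen2_iff hx hxA (h2A hb)).1 hb, rfl⟩
    · rintro ⟨b, hb, rfl⟩
      exact (h.mem_cen2_iff hx hxA b.2).2 hb
  rw [he, Subgroup.card_map_of_injective A.subtype_injective, card_comap_eq, h.card_ker hx hxA,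
    mul_comm p] at hc2
  haveI : Finite (cen S) := Finite.of_injective _ (Subgroup.inclusion_injective (inf_le_left : cen S ≤ S))
  exact Nat.eq_of_mul_eq_mul_left Nat.card_pos hc2

theorem card_cen_inf_commutator :
    Nat.card (cen S ⊓ (commutator ↥S).map S.subtype : Subgroup Ω) = p := by
  have := h.card_range_inf hx hxA h2A hc2
  rw [← Subgroup.card_map_of_injective A.subtype_injective, Subgroup.map_inf _ _ _ A.subtype_injective,
    Subgroup.map_subgroupOf_eq_of_le h.cen_le, ← h.commutator_eq hx hxA, inf_comm] at this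
  exact this

theorem index_sup :
    (((cen S) ⊔ (commutator ↥S).map S.subtype).subgroupOf A).index = p := by
  haveI := h.finite
  haveI : Finite A := Finite.of_injective _ (Subgroup.inclusion_injective h.le)
  haveI hcomm : IsMulCommutative A := ⟨⟨fun a b => Subtype.ext (h.comm _ a.2 _ b.2)⟩⟩
  have e : ((cen S) ⊔ (commutator ↥S).map S.subtype).subgroupOf A = (h.sigma hx).range ⊔ (cen S).subgroupOf A := by
    rw [h.commutator_eq hx hxA]
    conv_lhs => rw [← Subgroup.map_subgroupOf_eq_of_le h.cen_le]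
    rw [← Subgroup.map_sup, Subgroup.subgroupOf, Subgroup.comap_map_eq_self_of_injective A.subtype_injective,
      sup_comm]
  rw [e]
  set R := (h.sigma hx).range with hR
  set K := (cen S).subgroupOf A with hK
  haveI : R.Normal := ⟨fun n hn g => by
    have : g * n = n * g := Subtype.ext (h.comm _ g.2 _ n.2)
    rw [this, mul_inv_cancel_right]; exact hn⟩
  have h1 : R.relIndex (K ⊔ R) = R.relIndex K := Subgroup.relIndex_sup_right K R
  have h2 : Nat.card K * Nat.card R = Nat.card A := by
    rw [hK, ← h.ker_sigma hx hxA, hR, ← Subgroup.index_ker, Subgroup.card_mul_index]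
  have hc := h.card_range_inf hx hxA h2A hc2
  rw [← hR, ← hK] at hc
  have h3 : Nat.card (R.subgroupOf K) * R.relIndex K = Nat.card K := Subgroup.card_mul_index _
  have h3' : Nat.card (R.subgroupOf K) = p := by
    rw [← Subgroup.inf_subgroupOf_right, Nat.card_congr (Subgroup.subgroupOfEquivOfLe inf_le_right).toEquiv]
    exact hc
  have h4 : Nat.card (R.subgroupOf (K ⊔ R)) * R.relIndex (K ⊔ R) = Nat.card (K ⊔ R : Subgroup A) :=
    Subgroup.card_mul_index _
  rw [Nat.card_congr (Subgroup.subgroupOfEquivOfLe le_sup_right).toEquiv, h1] at h4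
  rw [h3'] at h3
  have h5 := Subgroup.card_mul_index (K ⊔ R)
  rw [← h2, ← h3, ← h4] at h5
  have hpos : 0 < Nat.card R * R.relIndex K := by
    refine Nat.mul_pos Nat.card_pos (Nat.pos_of_ne_zero fun h0 => ?_)
    rw [h0, mul_zero] at h3
    exact Nat.card_pos.ne h3
  rw [sup_comm]
  refine Nat.eq_of_mul_eq_mul_left hpos ?_
  rw [h5]
  ring

/-- The iterated commutators lose at most one factor `p` at each step. -/
theorem exists_lcs_large (j : ℕ) :
    ∃ E : Subgroup A, E ≤ (h.sigma hx).range ∧ E.map A.subtype ≤ Subgroup.lowerCentralSeries S (j + 1) ∧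
      Nat.card (h.sigma hx).range ≤ p ^ j * Nat.card E := by
  haveI := h.finite
  haveI : Finite A := Finite.of_injective _ (Subgroup.inclusion_injective h.le)
  have step : ∀ (E : Subgroup A) (j : ℕ), E.map A.subtype ≤ Subgroup.lowerCentralSeries S j →
      (E.map (h.sigma hx)).map A.subtype ≤ Subgroup.lowerCentralSeries S (j + 1) := by
    rintro E j hE _ ⟨_, ⟨b, hb, rfl⟩, rfl⟩
    show (b : Ω) * x * (b : Ω)⁻¹ * x⁻¹ ∈ ⁅Subgroup.lowerCentralSeries S j, S⁆
    exact Subgroup.commutator_mem_commutator (hE ⟨b, hb, rfl⟩) hx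
  induction j with
  | zero =>
    refine ⟨(h.sigma hx).range, le_rfl, ?_, by rw [pow_zero, one_mul]⟩
    rw [MonoidHom.range_eq_map]
    refine step ⊤ 0 ?_
    rintro _ ⟨b, -, rfl⟩
    exact h.le b.2
  | succ j ih =>
    obtain ⟨E, hER, hEl, hEc⟩ := ih
    refine ⟨E.map (h.sigma hx), ?_, step E (j + 1) hEl, ?_⟩
    · rintro _ ⟨b, -, rfl⟩
      exact ⟨b, rfl⟩
    · have hk : Nat.card (E ⊓ (h.sigma hx).ker : Subgroup A) ≤ p := by
        refine le_trans (Subgroup.card_le_of_le ?_) (h.card_range_inf hx hxA h2A hc2).le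
        rw [← h.ker_sigma hx hxA]
        exact inf_le_inf_right _ hER
      calc Nat.card (h.sigma hx).range ≤ p ^ j * Nat.card E := hEc
        _ = p ^ j * (Nat.card (E ⊓ (h.sigma hx).ker : Subgroup A) * Nat.card (E.map (h.sigma hx))) := by
          rw [← card_eq_ker_mul_map]
        _ ≤ p ^ j * (p * Nat.card (E.map (h.sigma hx))) :=
          Nat.mul_le_mul_left _ (Nat.mul_le_mul_right _ hk)
        _ = p ^ (j + 1) * Nat.card (E.map (h.sigma hx)) := by rw [pow_succ, mul_assoc]

/-- The lower central series leaves the centre late. -/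
theorem lcs_not_le {n : ℕ} (hn : (h.sigma hx).ker.index = p ^ n) {j : ℕ} (hj : j + 1 < n) :
    ¬ Subgroup.lowerCentralSeries S (j + 1) ≤ cen S := by
  haveI := h.finite
  haveI : Finite A := Finite.of_injective _ (Subgroup.inclusion_injective h.le)
  intro hle
  obtain ⟨E, hER, hEl, hEc⟩ := h.exists_lcs_large hx hxA h2A hc2 j
  have : Nat.card E ≤ p := by
    refine le_trans (Subgroup.card_le_of_le (le_inf hER fun b hb => ?_)) (h.card_range_inf hx hxA h2A hc2).le
    exact hle (hEl ⟨b, hb, rfl⟩)
  rw [← Subgroup.index_ker, hn] at hEc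
  have h1 : p ^ n ≤ p ^ (j + 1) := by
    rw [pow_succ]
    exact hEc.trans (Nat.mul_le_mul_left _ this)
  rw [Nat.pow_le_pow_iff_right (Fact.out : p.Prime).one_lt] at h1
  omega

/-- The lower central series stays nontrivial. -/
theorem lcs_ne_bot {n : ℕ} (hn : (h.sigma hx).ker.index = p ^ n) {j : ℕ} (hj : j < n) :
    Subgroup.lowerCentralSeries S (j + 1) ≠ ⊥ := by
  haveI := h.finite
  haveI : Finite A := Finite.of_injective _ (Subgroup.inclusion_injective h.le)
  intro hbot
  obtain ⟨E, -, hEl, hEc⟩ := h.exists_lcs_large hx hxA h2A hc2 j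
  rw [hbot, le_bot_iff, Subgroup.map_eq_bot_iff_of_injective _ A.subtype_injective] at hEl
  rw [← Subgroup.index_ker, hn, hEl, Subgroup.card_bot, mul_one] at hEc
  rw [Nat.pow_le_pow_iff_right (Fact.out : p.Prime).one_lt] at hEc
  omega

end Setting

end CfsgLib.Fus.AbelianIndexP
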