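import Cfsg.Agent.Fus.EssentialOmit
import Cfsg.Agent.Fusion.Alperin.Criteria
import Cfsg.Agent.Eq.Def_FusionSystem

/-!
An essential subgroup has an automorphism that moves `Aut_S(P)` to a Sylow subgroup meeting it in the
inner automorphisms; consequently a normalizing element acting trivially on a section fixed by both
lies in `P`.
-/

set_option autoImplicit false

namespace CfsgLib.Fus.AbelianIndexP

open Cfsg Cfsg.FusionSystem CfsgLib.Fus CfsgLib.Fusion.Alperin
open scoped Pointwise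

variable {Ω : Type*} [Group Ω] {S : Subgroup Ω} [Finite S] {p : ℕ} [Fact p.Prime]
  {F : Cfsg.FusionSystem S} {P : Subgroup Ω}

/-- `Aut_S(P)` and its conjugate by `a` or by `a⁻¹` meet in inner automorphisms. -/
def Opposite (S P : Subgroup Ω) (a : MulAut P) : Prop :=
  ∀ c ∈ Cfsg.autInducedBy S P, a * c * a⁻¹ ∈ Cfsg.autInducedBy S P → c ∈ Cfsg.Inn P

theorem inn_normal_mulAut {P : Subgroup Ω} {c : MulAut P} (hc : c ∈ Cfsg.Inn P) (a : MulAut P) :
    a * c * a⁻¹ ∈ Cfsg.Inn P := by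
  obtain ⟨u, rfl⟩ := hc
  refine ⟨a u, MulEquiv.ext fun x => ?_⟩
  simp

omit [Finite S] [Fact p.Prime] in
theorem Opposite.inv {a : MulAut P} (ha : Opposite S P a) : Opposite S P a⁻¹ := by
  intro c hc hac
  have h := ha _ hac (by simpa [mul_assoc] using hc)
  have := inn_normal_mulAut h a
  simpa [mul_assoc] using this

theorem exists_opposite (hS : IsPGroup p S) (hF : F.IsSaturated p) (hP : F.IsEssential p P) :
    P ≠ S ∧ ∃ a ∈ F.autGroup P, Opposite S P a := by
  obtain ⟨H, -, ⟨a, ha, haH⟩, hH, hne⟩ := EssentialOmit.exists_TI hS hF hP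
  refine ⟨hne, a, ha, fun c hc hac => ?_⟩
  by_contra hi
  exact haH (hH a ha c hc hi hac)

/-- A `p`-subgroup of `Aut_F(P)` normalized by `Aut_S(P)` lies in it. -/
theorem le_autS (hS : IsPGroup p S) (hF : F.IsSaturated p) (hn : F.IsFullyNormalized P)
    {N : Subgroup (MulAut P)} (hN : N ≤ F.autGroup P) (hp : IsPGroup p N)
    (hnorm : ∀ c ∈ Cfsg.autInducedBy S P, ∀ b ∈ N, c * b * c⁻¹ ∈ N) :
    N ≤ Cfsg.autInducedBy S P := by
  haveI : Finite P := finite_of_le hn.1
  haveI : Finite (MulAut P) := finite_mulAut P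
  obtain ⟨-, R, hR⟩ := (fullyNormalized_props hS hF hn).1
  set N' := N.subgroupOf (F.autGroup P)
  have hle : (R : Subgroup (F.autGroup P)) ≤ Subgroup.normalizer (N' : Set (F.autGroup P)) := by
    intro c hc
    have hc' : (c : MulAut P) ∈ Cfsg.autInducedBy S P := by rw [hR] at hc; exact hc
    refine Subgroup.mem_normalizer_iff.2 fun b => ⟨fun hb => hnorm _ hc' _ hb, fun hb => ?_⟩
    have := hnorm _ ((Cfsg.autInducedBy S P).inv_mem hc') _ hb
    simpa [N', Subgroup.mem_subgroupOf, mul_assoc] using this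
  have hp' : IsPGroup p ((R : Subgroup (F.autGroup P)) ⊔ N' : Subgroup (F.autGroup P)) :=
    R.isPGroup'.to_sup_of_normal_right' (hp.comap_subtype) hle
  have he := R.is_maximal' hp' le_sup_left
  intro b hb
  have : (⟨b, hN hb⟩ : F.autGroup P) ∈ (R : Subgroup (F.autGroup P)) := he ▸ Subgroup.mem_sup_right hb
  rw [hR] at this
  exact this

/-- Preserving a subgroup, in both directions. -/
def Pres (K : Subgroup P) (b : MulAut P) : Prop := ∀ y : P, b y ∈ K ↔ y ∈ K

/-- An element of `N_S(P)` centralizing `K` and `P` modulo `K` lies in `P` as soon as `Aut_S(P)` and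
an opposite conjugate of it preserve `K`. -/
theorem mem_of_trivial_mod (hS : IsPGroup p S) (hF : F.IsSaturated p) (hP : F.IsEssential p P)
    {a : MulAut P} (ha : a ∈ F.autGroup P) (hopp : Opposite S P a) (K : Subgroup P)
    (hpres : ∀ c ∈ Cfsg.autInducedBy S P, Pres K c ∧ Pres K (a⁻¹ * c * a))
    {g : Ω} (hg : g ∈ normalizerIn S P) (hfix : ∀ k ∈ K, g * (k : Ω) * g⁻¹ = k)
    (hmod : ∀ y : P, y⁻¹ * conjAut hg.2 y ∈ K) : g ∈ P := by
  have hPS := hP.1.1
  haveI : Finite P := finite_of_le hPS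
  let N : Subgroup (MulAut P) :=
    { carrier := {b | b ∈ F.autGroup P ∧ (∀ k ∈ K, b k = k) ∧ ∀ y, y⁻¹ * b y ∈ K}
      one_mem' := ⟨Subgroup.one_mem _, fun k _ => rfl, fun y => by simp⟩
      mul_mem' := by
        rintro b c ⟨hb, hb1, hb2⟩ ⟨hc, hc1, hc2⟩
        refine ⟨Subgroup.mul_mem _ hb hc, fun k hk => by rw [MulAut.mul_apply, hc1 k hk, hb1 k hk], fun y => ?_⟩
        rw [MulAut.mul_apply]
        have := K.mul_mem (hc2 y) (hb2 (c y))
        simpa [mul_assoc] using this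
      inv_mem' := by
        rintro b ⟨hb, hb1, hb2⟩
        refine ⟨Subgroup.inv_mem _ hb, fun k hk => ?_, fun y => ?_⟩
        · rw [MulAut.inv_def, MulEquiv.symm_apply_eq, hb1 k hk]
        · have := hb2 (b⁻¹ y)
          rw [MulAut.inv_def, MulEquiv.apply_symm_apply] at this
          simpa [MulAut.inv_def] using K.inv_mem this }
  have hNp : IsPGroup p N := by
    rintro ⟨b, hb, hb1, hb2⟩
    obtain ⟨n, hn⟩ := IsPGroup.iff_card.1 (hS.to_le hPS)
    refine ⟨n, Subtype.ext (MulEquiv.ext fun y => ?_)⟩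
    show (b ^ p ^ n) y = y
    rw [pow_fix_mul (β := b) (x := y) (z := y⁻¹ * b y) (by rw [mul_inv_cancel_left]) (hb1 _ (hb2 y)),
      ← hn, pow_card_eq_one', mul_one]
  have hconj : ∀ d ∈ F.autGroup P, Pres K d → ∀ b ∈ N, d * b * d⁻¹ ∈ N := by
    rintro d hd hdK b ⟨hb, hb1, hb2⟩
    refine ⟨Subgroup.mul_mem _ (Subgroup.mul_mem _ hd hb) (Subgroup.inv_mem _ hd), fun k hk => ?_, fun y => ?_⟩
    · have hk' : d⁻¹ k ∈ K := by
        rw [← hdK, MulAut.inv_def, MulEquiv.apply_symm_apply]; exact hk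
      rw [MulAut.mul_apply, MulAut.mul_apply, hb1 _ hk', MulAut.inv_def, MulEquiv.apply_symm_apply]
    · have := (hdK _).2 (hb2 (d⁻¹ y))
      rw [map_mul, map_inv] at this
      simpa [MulAut.inv_def] using this
  have hT := autInducedBy_le_autGroup F hPS
  have h1 : N ≤ Cfsg.autInducedBy S P :=
    le_autS hS hF hP.2.1 (fun b hb => hb.1) hNp fun c hc => hconj c (hT hc) (hpres c hc).1
  have h2 : N.map (MulAut.conj a).toMonoidHom ≤ Cfsg.autInducedBy S P := by
    refine le_autS hS hF hP.2.1 ?_ (hNp.map _) ?_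
    · rintro _ ⟨b, hb, rfl⟩
      exact Subgroup.mul_mem _ (Subgroup.mul_mem _ ha hb.1) (Subgroup.inv_mem _ ha)
    · rintro c hc _ ⟨b, hb, rfl⟩
      refine ⟨_, hconj _ (Subgroup.mul_mem _ (Subgroup.mul_mem _ (Subgroup.inv_mem _ ha) (hT hc)) ha)
        (hpres c hc).2 b hb, ?_⟩
      show a * (a⁻¹ * c * a * b * (a⁻¹ * c * a)⁻¹) * a⁻¹ = c * (a * b * a⁻¹) * c⁻¹
      group
  have hgT : conjAut hg.2 ∈ Cfsg.autInducedBy S P := conjAut_mem_autInducedBy hg.2 hg.1
  have hgN : conjAut hg.2 ∈ N := ⟨hT hgT, fun k hk => Subtype.ext (hfix k hk), hmod⟩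
  exact mem_of_conjAut_inn hP.1 hg.1 hg.2 (hopp _ hgT (h2 ⟨_, hgN, rfl⟩))

end CfsgLib.Fus.AbelianIndexP
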