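import Cfsg.Agent.Fus.AbelianIndexP.Basic
import Cfsg.Agent.Fus.AbelianIndexP.Opposite

/-!
Essential subgroups of a saturated system over a `p`-group with a unique abelian subgroup of index `p`.
-/

set_option autoImplicit false

namespace CfsgLib.Fus.AbelianIndexP

open Cfsg Cfsg.FusionSystem CfsgLib.Fus CfsgLib.Fusion.Alperin

variable {Ω : Type*} [Group Ω] {S A : Subgroup Ω} {p : ℕ} [Fact p.Prime]

/-- The index of a meet. -/
theorem card_inf_le_mul {R L K : Subgroup Ω} [Finite L] (hKL : K ≤ L) {n : ℕ}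
    (hc : Nat.card L ≤ n * Nat.card K) :
    Nat.card (R ⊓ L : Subgroup Ω) ≤ n * Nat.card (R ⊓ K : Subgroup Ω) := by
  haveI : Finite K := Finite.of_injective _ (Subgroup.inclusion_injective hKL)
  have e : ∀ {X : Subgroup Ω}, X ≤ L → Nat.card X * X.relIndex L = Nat.card L := fun {X} hX => by
    rw [← Nat.card_congr (Subgroup.subgroupOfEquivOfLe hX).toEquiv]
    exact Subgroup.card_mul_index _
  have eR : Nat.card (R ⊓ K : Subgroup Ω) * K.relIndex (R ⊓ L) = Nat.card (R ⊓ L : Subgroup Ω) := by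
    have h1 : Nat.card (K.subgroupOf (R ⊓ L)) = Nat.card (R ⊓ K : Subgroup Ω) := by
      rw [← Subgroup.inf_subgroupOf_right]
      have h2 : K ⊓ (R ⊓ L) = R ⊓ K := by
        rw [inf_left_comm, inf_of_le_left hKL]
      rw [Nat.card_congr (Subgroup.subgroupOfEquivOfLe inf_le_right).toEquiv, h2]
    rw [← h1]
    exact Subgroup.card_mul_index _
  have hn : K.relIndex L ≤ n := by
    have := (e hKL).le.trans hc
    rw [mul_comm n] at this
    exact Nat.le_of_mul_le_mul_left this Nat.card_pos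
  have hne : K.relIndex L ≠ 0 := fun h0 => by
    have := e hKL
    rw [h0, mul_zero] at this
    exact Nat.card_pos.ne this
  rw [← eR, mul_comm n]
  exact Nat.mul_le_mul_left _ ((Subgroup.relIndex_le_of_le_right inf_le_right hne).trans hn)

/-- Adjacent terms in a chain of `p`-subgroups. -/
theorem card_eq_mul_of_lt_of_le [Finite S] (hS : IsPGroup p S) {X Y : Subgroup Ω} (hY : Y ≤ S)
    (hXY : X ≤ Y) (hne : X ≠ Y) (hle : Nat.card Y ≤ p * Nat.card X) : Nat.card Y = p * Nat.card X := by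
  haveI : Finite Y := finite_of_le hY
  haveI : Finite X := finite_of_le (hXY.trans hY)
  obtain ⟨i, hi⟩ := IsPGroup.iff_card.1 (hS.to_le (hXY.trans hY))
  obtain ⟨j, hj⟩ := IsPGroup.iff_card.1 (hS.to_le hY)
  have hlt : Nat.card X < Nat.card Y := by
    refine lt_of_le_of_ne (Subgroup.card_le_of_le hXY) fun e => hne ?_
    exact Subgroup.eq_of_le_of_card_ge hXY e.ge
  rw [hi, hj] at hlt
  rw [hi, hj, ← pow_succ'] at hle
  rw [hi, hj, ← pow_succ']
  have hp1 := (Fact.out : p.Prime).one_lt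
  rw [Nat.pow_lt_pow_iff_right hp1] at hlt
  rw [Nat.pow_le_pow_iff_right hp1] at hle
  rw [show j = i + 1 by omega]

/-- The second centre when it lies in `A`, and the shape of an essential subgroup other than `A`. -/
structure Shape (S A P : Subgroup Ω) (p : ℕ) : Prop where
  cen_le : cen S ≤ P
  cen2_le : cen2 S ≤ A
  card_cen2 : Nat.card (cen2 S) = p * Nat.card (cen S)
  cases : P ⊓ A = cen S ∨ P ⊓ A = cen2 S
  card_normalizer : Nat.card (normalizerIn S P) = p * Nat.card P
  abelian : P ⊓ A = cen S → normalizerIn S P ⊓ A = cen2 S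

variable [Finite S] {F : Cfsg.FusionSystem S} {P : Subgroup Ω}

theorem exists_outside (h : Setting S A p) (hP : F.IsEssential p P) (hPA : P ≠ A) :
    ∃ x ∈ P, x ∉ A := by
  by_contra hc
  push Not at hc
  refine hPA (le_antisymm hc fun a ha => ?_)
  exact centralizerIn_le_of_centric hP.1 ⟨h.le ha, fun y hy => h.comm _ (hc y hy) _ ha⟩

theorem cen_le_of_centric (hP : F.IsCentric P) : cen S ≤ P := fun z hz =>
  centralizerIn_le_of_centric hP ⟨(mem_cen.1 hz).1, fun y hy => (mem_cen.1 hz).2 y (hP.1 hy)⟩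

/-- The centre pulled back along an automorphism. -/
def fixPart (S : Subgroup Ω) {P : Subgroup Ω} (a : MulAut P) : Subgroup P :=
  (cen S).subgroupOf P ⊓ ((cen S).subgroupOf P).comap a.toMonoidHom

theorem mem_fixPart {a : MulAut P} {y : P} :
    y ∈ fixPart S a ↔ (y : Ω) ∈ cen S ∧ ((a y : P) : Ω) ∈ cen S := Iff.rfl

theorem conj_fix {z g : Ω} (hg : g ∈ S) (hz : z ∈ cen S) : g * z * g⁻¹ = z := by
  rw [(mem_cen.1 hz).2 g hg, mul_inv_cancel_right]

theorem fixPart_pres (a : MulAut P) {c : MulAut P} (hc : c ∈ Cfsg.autInducedBy S P) :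
    (∀ k ∈ fixPart S a, c k = k) ∧ ∀ k ∈ fixPart S a, (a⁻¹ * c * a) k = k := by
  obtain ⟨g, hg, hgc⟩ := mem_autInducedBy_iff.1 hc
  refine ⟨fun k hk => Subtype.ext ?_, fun k hk => ?_⟩
  · rw [hgc, conj_fix hg (mem_fixPart.1 hk).1]
  · have : c (a k) = a k := Subtype.ext (by rw [hgc, conj_fix hg (mem_fixPart.1 hk).2])
    rw [MulAut.mul_apply, MulAut.mul_apply, this, MulAut.inv_def, MulEquiv.symm_apply_apply]

theorem pres_of_fix {K : Subgroup P} {c : MulAut P} (hc : ∀ k ∈ K, c k = k) : Pres K c := by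
  intro y
  refine ⟨fun h => ?_, fun h => (hc y h).symm ▸ h⟩
  have := hc _ h
  rw [c.injective this] at h
  exact h

/-- An element of `N_S(P)` commuting modulo the fixed part lies in `P`. -/
theorem mem_of_fixPart (h : Setting S A p) (hF : F.IsSaturated p) (hP : F.IsEssential p P)
    {a : MulAut P} (ha : a ∈ F.autGroup P) (hopp : Opposite S P a) {x g : Ω} (hxP : x ∈ P)
    (hxA : x ∉ A) (hgA : g ∈ A) (hgN : g ∈ normalizerIn S P)
    (hgK : ∃ k ∈ fixPart S a, (k : Ω) = g * x * g⁻¹ * x⁻¹) : g ∈ P := by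
  have hpres : ∀ c ∈ Cfsg.autInducedBy S P, Pres (fixPart S a) c ∧ Pres (fixPart S a) (a⁻¹ * c * a) :=
    fun c hc => ⟨pres_of_fix (fixPart_pres a hc).1, pres_of_fix (fixPart_pres a hc).2⟩
  refine mem_of_trivial_mod h.pgroup hF hP ha hopp _ hpres hgN
    (fun k hk => conj_fix hgN.1 (mem_fixPart.1 hk).1) fun y => ?_
  set K := (fixPart S a).map P.subtype with hK
  have hKcen : ∀ k ∈ K, k ∈ cen S := by
    rintro _ ⟨k, hk, rfl⟩
    exact (mem_fixPart.1 hk).1
  have hall := h.comm_mem_of_gen (K := K) (fun s hs k hk => by rwa [conj_fix hs (hKcen k hk)])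
    (hP.1.1 hxP) hxA (u := g)
    (fun b hb => by rw [h.comm _ hgA _ hb, mul_inv_cancel_right, mul_inv_cancel]; exact K.one_mem)
    (by obtain ⟨k, hk, hke⟩ := hgK; exact ⟨k, hk, hke⟩) y (hP.1.1 y.2)
  obtain ⟨k, hk, hke⟩ := hall
  have e : y⁻¹ * conjAut hgN.2 y = k := by
    refine Subtype.ext ?_
    show (y : Ω)⁻¹ * (g * y * g⁻¹) = (k : Ω)
    have hkc := (mem_cen.1 (mem_fixPart.1 hk).1).2 y (hP.1.1 y.2)
    change (k : Ω) = g * (y : Ω) * g⁻¹ * (y : Ω)⁻¹ at hke
    rw [show g * (y : Ω) * g⁻¹ = (k : Ω) * y from by rw [hke]; group, ← hkc, inv_mul_cancel_left]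
  rw [e]
  exact hk

theorem mem_normalizerIn_iff_sigma (h : Setting S A p) {x b : Ω} (hP : P ≤ S) (hx : x ∈ P)
    (hxA : x ∉ A) (hb : b ∈ A) :
    b ∈ normalizerIn S P ↔ b * x * b⁻¹ * x⁻¹ ∈ P ⊓ A := by
  constructor
  · intro hn
    exact ⟨P.mul_mem (conj_mem_of_normalizer hn.2 hx) (P.inv_mem hx), (h.sigma (hP hx) ⟨b, hb⟩).2⟩
  · intro hs
    refine ⟨h.le hb, ?_⟩
    haveI : Finite P := finite_of_le hP
    have hle : P ≤ P.comap (MulAut.conj b).toMonoidHom := by
      conv_lhs => rw [h.eq_sup hxA hP hx]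
      refine sup_le (fun y hy => ?_) (Subgroup.zpowers_le.2 ?_)
      · show b * y * b⁻¹ ∈ P
        rw [h.comm _ hb _ hy.2, mul_inv_cancel_right]
        exact hy.1
      · show b * x * b⁻¹ ∈ P
        have := P.mul_mem hs.1 hx
        simpa [mul_assoc] using this
    have he : P.map (MulAut.conj b).toMonoidHom = P := by
      refine Subgroup.eq_of_le_of_card_ge (Subgroup.map_le_iff_le_comap.2 hle) ?_
      rw [Subgroup.card_map_of_injective (K := P) (f := (MulAut.conj b).toMonoidHom)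
        (MulAut.conj b).injective]
    refine Subgroup.mem_normalizer_iff.2 fun d => ⟨fun hd => hle hd, fun hd => ?_⟩
    rw [← he] at hd
    obtain ⟨d', hd', e⟩ := hd
    exact (mul_left_cancel (mul_right_cancel e)) ▸ hd'

/-- An automorphism moving the abelian hyperplane when the essential subgroup is nonabelian. -/
theorem exists_moving (h : Setting S A p) (hF : F.IsSaturated p) (hP : F.IsEssential p P) {x : Ω}
    (hxP : x ∈ P) (hxA : x ∉ A) :
    ∃ α ∈ F.autGroup P, ∃ y : P, (y : Ω) ∈ A ∧ ((α y : P) : Ω) ∉ A := by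
  by_contra hc
  push Not at hc
  have hPS := hP.1.1
  obtain ⟨hne, a, ha, hopp⟩ := exists_opposite h.pgroup hF hP
  have hpr : ∀ d ∈ F.autGroup P, Pres (A.subgroupOf P) d := fun d hd y => by
    refine ⟨fun hy => ?_, fun hy => hc d hd y hy⟩
    have := hc d⁻¹ (Subgroup.inv_mem _ hd) _ hy
    simpa [Subgroup.mem_subgroupOf, MulAut.inv_def] using this
  obtain ⟨g, hg, hgP⟩ := exists_normalizing_not_mem h.pgroup hPS hne
  obtain ⟨i, hi⟩ := h.exists_rep (hPS hxP) hxA hg.1
  have hxN : x ^ i ∈ normalizerIn S P := Subgroup.zpow_mem _ (le_normalizerIn hPS hxP) _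
  have hgN : g * x ^ i ∈ normalizerIn S P := Subgroup.mul_mem _ hg hxN
  have hgx : g * x ^ i ∈ P := by
    have hT := autInducedBy_le_autGroup F hPS
    refine mem_of_trivial_mod h.pgroup hF hP ha hopp (A.subgroupOf P)
      (fun c hc' => ⟨hpr c (hT hc'), hpr _ (Subgroup.mul_mem _ (Subgroup.mul_mem _ (Subgroup.inv_mem _ ha) (hT hc')) ha)⟩)
      hgN (fun k hk => by rw [h.comm _ hi (k : Ω) hk, mul_inv_cancel_right]) fun y => ?_
    show (y : Ω)⁻¹ * (g * x ^ i * y * (g * x ^ i)⁻¹) ∈ A
    have := A.mul_mem (h.conj_mem (S.inv_mem (hPS y.2)) hi) (A.inv_mem hi)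
    simpa [mul_assoc] using this
  apply hgP
  have := P.mul_mem hgx (P.inv_mem (P.zpow_mem hxP i))
  simpa [mul_assoc] using this

/-- The structure theorem. -/
theorem shape (h : Setting S A p)
    (huniq : ∀ B : Subgroup Ω, B ≤ S → (∀ u ∈ B, ∀ v ∈ B, u * v = v * u) → (B.subgroupOf S).index = p → B = A)
    (hF : F.IsSaturated p) (hP : F.IsEssential p P) (hPA : P ≠ A) : Shape S A P p := by
  obtain ⟨x, hxP, hxA⟩ := exists_outside h hP hPA
  have hPS := hP.1.1
  have hx : x ∈ S := hPS hxP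
  haveI : Finite P := finite_of_le hPS
  haveI : Finite A := finite_of_le h.le
  obtain ⟨hne, a, ha, hopp⟩ := exists_opposite h.pgroup hF hP
  have hZP := cen_le_of_centric (F := F) hP.1
  have hZP0 : cen S ≤ P ⊓ A := le_inf hZP h.cen_le
  haveI : Finite (P ⊓ A : Subgroup Ω) := finite_of_le (inf_le_left.trans hPS)
  set P0 := P ⊓ A with hP0
  set K := (fixPart S a).map P.subtype with hK
  have hKcen : K ≤ cen S := by
    rintro _ ⟨k, hk, rfl⟩
    exact (mem_fixPart.1 hk).1
  have hcP : Nat.card P = p * Nat.card P0 := h.card_eq hxA hPS hxP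
  -- the fixed part has index at most `p` in `P ∩ A`
  have hKcard : Nat.card P0 ≤ p * Nat.card K ∧ (P0 ≠ cen S → K = cen S) := by
    have hcK : Nat.card K = Nat.card (fixPart S a) :=
      Subgroup.card_map_of_injective P.subtype_injective
    have hAi : (A.subgroupOf P).index = p := by
      have := Subgroup.card_mul_index (A.subgroupOf P)
      rw [← Subgroup.inf_subgroupOf_right, Nat.card_congr (Subgroup.subgroupOfEquivOfLe inf_le_right).toEquiv,
        inf_comm, hcP, mul_comm p] at this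
      rw [← Subgroup.inf_subgroupOf_right, inf_comm]
      exact Nat.eq_of_mul_eq_mul_left Nat.card_pos this
    have hAc : ∀ α : MulAut P, ((A.subgroupOf P).comap α.toMonoidHom).index = p := fun α => by
      rw [Subgroup.index_comap_of_surjective _ α.surjective, hAi]
    have key : ∀ C : Subgroup P, C.index ≤ p * p → Nat.card P0 ≤ p * Nat.card C := by
      intro C hC
      have hm := Subgroup.card_mul_index C
      rw [hcP] at hm
      have h2 : p * Nat.card P0 ≤ p * (p * Nat.card C) := by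
        rw [← hm]
        calc Nat.card C * C.index ≤ Nat.card C * (p * p) := Nat.mul_le_mul_left _ hC
          _ = p * (p * Nat.card C) := by ring
      exact Nat.le_of_mul_le_mul_left h2 (Fact.out : p.Prime).pos
    have hii : ∀ X Y : Subgroup P, X.index = p → Y.index = p → (X ⊓ Y).index ≤ p * p := fun X Y hX hY =>
      (Subgroup.index_inf_le).trans (by rw [hX, hY])
    rw [hcK]
    by_cases hab : P0 = cen S
    · refine ⟨key _ ?_, fun hne' => absurd hab hne'⟩
      have e : (cen S).subgroupOf P = A.subgroupOf P := by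
        rw [← hab, hP0, Subgroup.inf_subgroupOf_left]
      show ((cen S).subgroupOf P ⊓ ((cen S).subgroupOf P).comap a.toMonoidHom).index ≤ p * p
      rw [e]
      exact hii _ _ hAi (hAc a)
    · obtain ⟨α, hα, y0, hy0, hy0'⟩ := exists_moving h hF hP hxP hxA
      -- the centre of `P` is the centre of `S`
      have hcenP : ∀ y : P, (y : Ω) ∈ cen S ↔ ∀ u : P, u * y = y * u := by
        intro y
        refine ⟨fun hy u => Subtype.ext ((mem_cen.1 hy).2 u (hPS u.2)), fun hy => ?_⟩
        by_cases hyA : (y : Ω) ∈ A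
        · exact h.mem_cen_of_comm hx hxA hyA (congrArg Subtype.val (hy ⟨x, hxP⟩)).symm
        · exfalso
          refine hab (le_antisymm (fun b hb => ?_) hZP0)
          exact h.mem_cen_of_comm (hPS y.2) hyA hb.2 (congrArg Subtype.val (hy ⟨b, hb.1⟩))
      have hpres : ∀ y : P, (y : Ω) ∈ cen S → ((a y : P) : Ω) ∈ cen S := fun y hy => by
        rw [hcenP]
        intro u
        obtain ⟨u', rfl⟩ := a.surjective u
        rw [← map_mul, ← map_mul, (hcenP y).1 hy u']
      have hfix : fixPart S a = (cen S).subgroupOf P :=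
        le_antisymm inf_le_left fun y hy => ⟨hy, hpres y hy⟩
      have hle : A.subgroupOf P ⊓ (A.subgroupOf P).comap α⁻¹.toMonoidHom ≤ (cen S).subgroupOf P := by
        rintro y ⟨hy, hy'⟩
        have hq : ((α⁻¹ (α y0) : P) : Ω) ∈ A := by
          rw [MulAut.inv_def, MulEquiv.symm_apply_apply]; exact hy0
        have hc : y * α y0 = α y0 * y := by
          apply α⁻¹.injective
          rw [map_mul, map_mul]
          exact Subtype.ext (h.comm _ hy' _ hq)
        exact h.mem_cen_of_comm (hPS (α y0).2) hy0' hy (congrArg Subtype.val hc)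
      refine ⟨key _ ?_, fun _ => ?_⟩
      · rw [hfix]
        exact (Subgroup.index_antitone hle).trans (hii _ _ hAi (hAc α⁻¹))
      · rw [hK, hfix, Subgroup.map_subgroupOf_eq_of_le hZP]
  obtain ⟨hKcard, hKna⟩ := hKcard
  -- preimages under `b ↦ [b, x]`
  let D := (h.sigma hx).range.map A.subtype
  let pre : Subgroup Ω → Subgroup Ω := fun L => ((L.subgroupOf A).comap (h.sigma hx)).map A.subtype
  have hpre : ∀ {L : Subgroup Ω} {b : Ω}, b ∈ pre L ↔ b ∈ A ∧ b * x * b⁻¹ * x⁻¹ ∈ L := by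
    intro L b
    constructor
    · rintro ⟨b, hb, rfl⟩
      exact ⟨b.2, hb⟩
    · rintro ⟨hb, hb'⟩
      exact ⟨⟨b, hb⟩, hb', rfl⟩
  have hprecard : ∀ {L : Subgroup Ω}, L ≤ A →
      Nat.card (pre L) = Nat.card (cen S) * Nat.card (D ⊓ L : Subgroup Ω) := by
    intro L hL
    show Nat.card (((L.subgroupOf A).comap (h.sigma hx)).map A.subtype) = _
    rw [Subgroup.card_map_of_injective A.subtype_injective, card_comap_eq, h.card_ker hx hxA]
    congr 1
    rw [← Subgroup.card_map_of_injective (K := (h.sigma hx).range ⊓ L.subgroupOf A) A.subtype_injective,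
      Subgroup.map_inf _ _ _ A.subtype_injective, Subgroup.map_subgroupOf_eq_of_le hL]
  have hNA : normalizerIn S P ⊓ A = pre P0 := by
    ext b
    rw [hpre]
    exact ⟨fun hb => ⟨hb.2, (mem_normalizerIn_iff_sigma h hPS hxP hxA hb.2).1 hb.1⟩,
      fun hb => ⟨(mem_normalizerIn_iff_sigma h hPS hxP hxA hb.1).2 hb.2, hb.1⟩⟩
  have hpreK : pre K ≤ P0 := by
    intro b hb
    obtain ⟨hbA, hbK⟩ := hpre.1 hb
    refine ⟨mem_of_fixPart h hF hP ha hopp hxP hxA hbA ?_ hbK, hbA⟩
    exact (mem_normalizerIn_iff_sigma h hPS hxP hxA hbA).2 (hZP0 (hKcen hbK))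
  have hNS : normalizerIn S P ≤ S := inf_le_left
  have hxN : x ∈ normalizerIn S P := le_normalizerIn hPS hxP
  have hgrow : P0 ≠ normalizerIn S P ⊓ A := by
    intro e
    obtain ⟨g, hg, hgP⟩ := exists_normalizing_not_mem h.pgroup hPS hne
    obtain ⟨i, hi⟩ := h.exists_rep hx hxA hg.1
    have h1 : g * x ^ i ∈ P0 := e ▸ ⟨Subgroup.mul_mem _ hg (Subgroup.zpow_mem _ hxN i), hi⟩
    apply hgP
    have := P.mul_mem h1.1 (P.inv_mem (P.zpow_mem hxP i))
    simpa [mul_assoc] using this
  have hP0N : P0 ≤ normalizerIn S P ⊓ A := inf_le_inf_right _ (le_normalizerIn hPS)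
  haveI : Finite P0 := finite_of_le (inf_le_left.trans hPS)
  have hbound : Nat.card (normalizerIn S P ⊓ A : Subgroup Ω) ≤ p * Nat.card (pre K) := by
    rw [hNA, hprecard inf_le_right, hprecard (hKcen.trans h.cen_le), mul_left_comm]
    exact Nat.mul_le_mul_left _ (card_inf_le_mul (hKcen.trans hZP0) hKcard)
  have hcN : Nat.card (normalizerIn S P ⊓ A : Subgroup Ω) = p * Nat.card P0 :=
    card_eq_mul_of_lt_of_le h.pgroup (inf_le_left.trans hNS) hP0N hgrow
      (hbound.trans (Nat.mul_le_mul_left _ (Subgroup.card_le_of_le hpreK)))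
  have hpreKeq : pre K = P0 := by
    refine Subgroup.eq_of_le_of_card_ge hpreK ?_
    exact Nat.le_of_mul_le_mul_left (hcN.ge.trans hbound) (Fact.out : p.Prime).pos
  set U := cen2 S ⊓ A with hU
  have hUpre : U = pre (cen S) := by
    ext b
    rw [hpre]
    exact ⟨fun hb => ⟨hb.2, (h.mem_cen2_iff hx hxA hb.2).1 hb.1⟩,
      fun hb => ⟨(h.mem_cen2_iff hx hxA hb.1).2 hb.2, hb.1⟩⟩
  have hP0U : P0 ≤ U := by
    rw [← hpreKeq, hUpre]
    intro b hb
    exact hpre.2 ⟨(hpre.1 hb).1, hKcen (hpre.1 hb).2⟩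
  have hUN : U ≤ normalizerIn S P ⊓ A := by
    rw [hNA, hUpre]
    intro b hb
    exact hpre.2 ⟨(hpre.1 hb).1, hZP0 (hpre.1 hb).2⟩
  have hnab : P0 ≠ cen S → U = P0 := fun hne' => by rw [hUpre, ← hpreKeq, hKna hne']
  have hab : P0 = cen S → U = normalizerIn S P ⊓ A := fun he => by rw [hUpre, hNA, he]
  have hcU : Nat.card U = p * Nat.card (cen S) := by
    by_cases he : P0 = cen S
    · rw [hab he, hcN, he]
    · rw [hnab he]
      refine card_eq_mul_of_lt_of_le h.pgroup (inf_le_left.trans hPS) hZP0 (Ne.symm he) ?_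
      rw [← hKna he]
      exact hKcard
  have hUA : U ≠ A := by
    intro e
    by_cases he : P0 = cen S
    · apply hPA
      refine huniq P hPS ?_ ?_
      · intro u hu v hv
        have hPc : P ≤ Subgroup.centralizer {v} := by
          rw [h.eq_sup hxA hPS hxP]
          refine sup_le (fun w hw => ?_) (Subgroup.zpowers_le.2 ?_)
          · exact Subgroup.mem_centralizer_iff.2 (fun t ht => by
              rw [Set.mem_singleton_iff.1 ht]
              exact (mem_cen.1 (he.le hw)).2 _ (hPS hv))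
          · refine Subgroup.mem_centralizer_iff.2 fun t ht => ?_
            rw [Set.mem_singleton_iff.1 ht]
            obtain ⟨i, hi⟩ := h.exists_rep hx hxA (hPS hv)
            have hz : v * x ^ i ∈ cen S := he.le ⟨P.mul_mem hv (P.zpow_mem hxP i), hi⟩
            have hzx := (mem_cen.1 hz).2 x hx
            have : v = v * x ^ i * x ^ (-i) := by group
            rw [this]
            calc v * x ^ i * x ^ (-i) * x = v * x ^ i * x * x ^ (-i) := by group
              _ = x * (v * x ^ i) * x ^ (-i) := by rw [hzx]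
              _ = x * (v * x ^ i * x ^ (-i)) := by group
        exact (Subgroup.mem_centralizer_iff.1 (hPc hu) v rfl).symm
      · have hm := Subgroup.card_mul_index (P.subgroupOf S)
        rw [Nat.card_congr (Subgroup.subgroupOfEquivOfLe hPS).toEquiv, hcP, he, h.card_S, ← e, hcU] at hm
        have hpos : 0 < p * Nat.card (cen S) := by
          haveI : Finite (cen S) := finite_of_le inf_le_left
          exact Nat.mul_pos (Fact.out : p.Prime).pos Nat.card_pos
        exact Nat.eq_of_mul_eq_mul_left hpos (hm.trans (mul_comm p (p * Nat.card (cen S))))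
    · apply hne
      refine le_antisymm hPS (h.gen_le hx hxA ?_ hxP)
      rw [← e, hnab he]
      exact inf_le_left
  have h2A : cen2 S ≤ A := by
    intro y hy
    by_contra hyA
    apply hUA
    refine le_antisymm inf_le_right fun b hb => ⟨?_, hb⟩
    obtain ⟨hyS, hyc⟩ := mem_cen2.1 hy
    refine mem_cen2.2 ⟨h.le hb, h.comm_mem_of_gen (fun s hs k hk => by rwa [conj_fix hs hk]) hyS hyA
      (fun c hc => ?_) ?_⟩
    · rw [h.comm _ hb _ hc]; simp
    · have := (cen S).inv_mem (hyc b (h.le hb))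
      simpa [mul_assoc] using this
  have hU2 : U = cen2 S := inf_of_le_left h2A
  refine ⟨hZP, h2A, hU2 ▸ hcU, ?_, ?_, fun he => ?_⟩
  · by_cases he : P0 = cen S
    · exact Or.inl he
    · exact Or.inr ((hnab he).symm.trans hU2)
  · rw [h.card_eq hxA hNS hxN, hcN, hcP]
  · exact (hab he).symm.trans hU2

omit [Fact p.Prime] in
theorem setting_of_hyps (hS : IsPGroup p S) (hna : ¬ IsMulCommutative ↥S)
    (hA : A ≤ S ∧ IsMulCommutative ↥A ∧ (A.subgroupOf S).index = p) : Setting S A p where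
  finite := inferInstance
  pgroup := hS
  le := hA.1
  comm := fun a ha b hb => congrArg Subtype.val (hA.2.1.is_comm.comm ⟨a, ha⟩ ⟨b, hb⟩)
  idx := hA.2.2
  na := by
    by_contra hc
    push Not at hc
    exact hna ⟨⟨fun a b => Subtype.ext (hc a a.2 b b.2)⟩⟩

omit [Fact p.Prime] [Finite S] in
theorem uniq_of_hyps
    (huniq : ∀ B : Subgroup Ω, B ≤ S → IsMulCommutative ↥B → (B.subgroupOf S).index = p → B = A) :
    ∀ B : Subgroup Ω, B ≤ S → (∀ u ∈ B, ∀ v ∈ B, u * v = v * u) → (B.subgroupOf S).index = p → B = A :=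
  fun B hB hc hi => huniq B hB ⟨⟨fun a b => Subtype.ext (hc a a.2 b b.2)⟩⟩ hi

end CfsgLib.Fus.AbelianIndexP
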