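import Cfsg.Agent.Fus.AbelianIndexP.Agree
import Cfsg.Agent.Fus.AbelianIndexP.Chain

/-!
When the abelian subgroup of index `p` is not essential and the system has trivial core, the centre
has order `p`: otherwise the fixed subgroup of the torus in the centre would be normal.
-/

set_option autoImplicit false

namespace CfsgLib.Fus.AbelianIndexP

open Cfsg Cfsg.FusionSystem CfsgLib.Fus CfsgLib.Fusion.Alperin

variable {Ω : Type*} [Group Ω] {S A : Subgroup Ω} {p : ℕ} [Fact p.Prime] [Finite S]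
  {F : Cfsg.FusionSystem S}

/-- The commutators in the centre. -/
def wGrp (S : Subgroup Ω) : Subgroup Ω := cen S ⊓ (commutator ↥S).map S.subtype

theorem mem_wGrp_map (β : MulAut S) {y : S} (hy : (y : Ω) ∈ wGrp S) : ((β y : S) : Ω) ∈ wGrp S := by
  obtain ⟨hc, z, hz, he⟩ := hy
  refine ⟨(cen_map β).2 hc, β y, ?_, rfl⟩
  rw [← Subtype.ext he] at *
  have := Subgroup.characteristic_iff_comap_eq.1 (inferInstance : (commutator ↥S).Characteristic) β
  rw [← this] at hz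
  exact hz

omit [Fact p.Prime] [Finite S] in
theorem comm_mem_wGrp {u v : Ω} (hu : u ∈ S) (hv : v ∈ S) (hc : u * v * u⁻¹ * v⁻¹ ∈ cen S) :
    u * v * u⁻¹ * v⁻¹ ∈ wGrp S := by
  refine ⟨hc, ?_⟩
  rw [Subgroup.map_subtype_commutator, ← commutatorElement_def]
  exact Subgroup.commutator_mem_commutator hu hv

/-- Being trivial on the centre modulo commutators. -/
def H1 (S : Subgroup Ω) (β : MulAut S) : Prop :=
  ∀ z : S, (z : Ω) ∈ cen S → ((β z : S) : Ω) * (z : Ω)⁻¹ ∈ wGrp S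

/-- The fixed part of the centre. -/
def k0 (F : Cfsg.FusionSystem S) : Subgroup Ω :=
  ({ carrier := {z : S | (z : Ω) ∈ cen S ∧ ∀ β ∈ F.autGroup S, H1 S β → β z = z}
     one_mem' := ⟨one_mem _, fun β _ _ => map_one β⟩
     mul_mem' := fun {a b} ha hb => ⟨(cen S).mul_mem ha.1 hb.1, fun β hβ h => by
       rw [map_mul, ha.2 β hβ h, hb.2 β hβ h]⟩
     inv_mem' := fun {a} ha => ⟨(cen S).inv_mem ha.1, fun β hβ h => by
       rw [map_inv, ha.2 β hβ h]⟩ } : Subgroup S).map S.subtype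

omit [Fact p.Prime] [Finite S] in
theorem mem_k0 {z : Ω} : z ∈ k0 F ↔
    ∃ hz : z ∈ cen S, ∀ β ∈ F.autGroup S, H1 S β → β ⟨z, hz.1⟩ = ⟨z, hz.1⟩ := by
  constructor
  · rintro ⟨z, hz, rfl⟩
    exact ⟨hz.1, fun β hβ h => hz.2 β hβ h⟩
  · rintro ⟨hz, h⟩
    exact ⟨⟨z, hz.1⟩, ⟨hz, h⟩, rfl⟩

omit [Fact p.Prime] in
theorem k0_le : k0 F ≤ cen S := fun _ hz => (mem_k0.1 hz).1

theorem k0_map {δ : MulAut S} (hδ : δ ∈ F.autGroup S) {z : S} (hz : (z : Ω) ∈ k0 F) :
    ((δ z : S) : Ω) ∈ k0 F := by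
  obtain ⟨hzc, hfix⟩ := mem_k0.1 hz
  refine mem_k0.2 ⟨(cen_map δ).2 hzc, fun γ hγ hH => ?_⟩
  have h1 : H1 S (δ⁻¹ * γ * δ) := fun w hw => by
    have h2 := mem_wGrp_map δ⁻¹ (y := γ (δ w) * (δ w)⁻¹) (hH _ ((cen_map δ).2 hw))
    rw [map_mul, map_inv] at h2
    simpa [MulAut.inv_def] using h2
  have h2 := hfix _ (Subgroup.mul_mem _ (Subgroup.mul_mem _ (Subgroup.inv_mem _ hδ) hγ) hδ) h1
  have h3 := congrArg δ h2
  rw [MulAut.mul_apply, MulAut.mul_apply, MulAut.inv_def, MulEquiv.apply_symm_apply] at h3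
  exact h3

/-- An automorphism of `S` trivial on `W` and on `Z/W` is trivial on `Z`. -/
theorem trivial_of_unipotent (hS : IsPGroup p S) (hF : F.IsSaturated p)
    (hW : Nat.card (wGrp S) = p) {θ : MulAut S} (hθ : θ ∈ F.autGroup S)
    (hfix : ∀ w : S, (w : Ω) ∈ wGrp S → θ w = w) (hH : H1 S θ) {z : S} (hz : (z : Ω) ∈ cen S) :
    θ z = z := by
  haveI : Finite (MulAut S) := finite_mulAut S
  set d : S := θ z * z⁻¹ with hd
  have hdW : (d : Ω) ∈ wGrp S := hH z hz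
  have hθp : (θ ^ p) z = z := by
    have e : θ z = z * d := by
      refine Subtype.ext ?_
      have hzd := (mem_cen.1 hz).2 d d.2
      show _ = (z : Ω) * (d : Ω)
      rw [← hzd, hd]
      simp
    rw [pow_fix_mul e (hfix d hdW)]
    haveI : Finite (wGrp S) := finite_of_le (inf_le_left.trans inf_le_left)
    have hdp : (⟨(d : Ω), hdW⟩ : wGrp S) ^ p = 1 := by rw [← hW]; exact pow_card_eq_one'
    have hdp' : (d : Ω) ^ p = 1 := congrArg Subtype.val hdp
    rw [show d ^ p = 1 from Subtype.ext hdp', mul_one]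
  obtain ⟨-, R, hR⟩ := (fullyNormalized_props hS hF (isFullyNormalized_top F)).1
  haveI hnor : (R : Subgroup (F.autGroup S)).Normal := by
    refine ⟨fun c hc d => ?_⟩
    rw [hR] at hc ⊢
    have hc' : (c : MulAut S) ∈ Cfsg.Inn S := by
      rw [inn_eq_autInducedBy_self]
      exact hc
    show ((d * c * d⁻¹ : F.autGroup S) : MulAut S) ∈ Cfsg.autInducedBy S S
    rw [← inn_eq_autInducedBy_self]
    exact inn_normal_mulAut hc' (d : MulAut S)
  set m := (R : Subgroup (F.autGroup S)).index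
  have hθm : (θ ^ m) z = z := by
    have h1 : (⟨θ, hθ⟩ : F.autGroup S) ^ m ∈ (R : Subgroup (F.autGroup S)) := Subgroup.pow_index_mem _ _
    rw [hR] at h1
    obtain ⟨g, hg, hgc⟩ := mem_autInducedBy_iff.1 (h1 : θ ^ m ∈ Cfsg.autInducedBy S S)
    exact Subtype.ext ((hgc z).trans (conj_fix hg hz))
  let St : Subgroup (MulAut S) :=
    { carrier := {b | b z = z}
      one_mem' := rfl
      mul_mem' := fun {a b} ha hb => by
        show a (b z) = z
        rw [show b z = z from hb]; exact ha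
      inv_mem' := fun {a} ha => by
        show a⁻¹ z = z
        rw [MulAut.inv_def, MulEquiv.symm_apply_eq]; exact (ha : a z = z).symm }
  have hcop : Nat.Coprime p m := (Fact.out : p.Prime).coprime_iff_not_dvd.2 R.not_dvd_index
  have key : (p : ℤ) * Nat.gcdA p m + (m : ℤ) * Nat.gcdB p m = 1 := by
    rw [← Nat.gcd_eq_gcd_ab, hcop.gcd_eq_one]
    rfl
  have : θ ∈ St := by
    rw [← zpow_one θ, ← key, zpow_add, zpow_mul, zpow_mul, zpow_natCast, zpow_natCast]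
    exact St.mul_mem (St.zpow_mem hθp _) (St.zpow_mem hθm _)
  exact this

variable (h : Setting S A p)
  (huniq : ∀ B : Subgroup Ω, B ≤ S → (∀ u ∈ B, ∀ v ∈ B, u * v = v * u) → (B.subgroupOf S).index = p → B = A)
  (hF : F.IsSaturated p) (hp : p ≠ 2) {Q : Subgroup Ω} (hQ : F.IsEssential p Q) (hQA : Q ≠ A)
  (hab : ∀ u ∈ Q, ∀ v ∈ Q, u * v = v * u)
include h huniq hF hp hQ hQA hab

omit hp in
theorem abelian_inf : Q ⊓ A = cen S := by
  obtain ⟨x, hxQ, hxA⟩ := exists_outside h hQ hQA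
  have sh := shape h huniq hF hQ hQA
  refine le_antisymm (fun b hb => h.mem_cen_of_comm (hQ.1.1 hxQ) hxA hb.2 (hab b hb.1 x hxQ))
    (le_inf sh.cen_le h.cen_le)

omit hp in
theorem card_wGrp : Nat.card (wGrp S) = p := by
  obtain ⟨x, hxQ, hxA⟩ := exists_outside h hQ hQA
  have sh := shape h huniq hF hQ hQA
  exact h.card_cen_inf_commutator (hQ.1.1 hxQ) hxA sh.cen2_le sh.card_cen2

/-- The fixed part of an opposite automorphism is the fixed part of the torus. -/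
theorem fixPart_eq_k0 {a : MulAut Q} (ha : a ∈ F.autGroup Q) (hopp : Opposite S Q a) :
    (fixPart S a).map Q.subtype = k0 F ∧
      Nat.card (cen S) = p * Nat.card ((fixPart S a).map Q.subtype) := by
  have hQS := hQ.1.1
  haveI : Finite Q := finite_of_le hQS
  haveI : Finite (MulAut Q) := finite_mulAut Q
  have sh := shape h huniq hF hQ hQA
  have hQZ := abelian_inf h huniq hF hQ hQA hab
  obtain ⟨x₀, hx₀, hx₀A⟩ := exists_outside h hQ hQA
  haveI hfinZ : Finite (cen S) := finite_of_le inf_le_left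
  have hWc := card_wGrp h huniq hF hQ hQA hab
  have hWZ : wGrp S ≤ cen S := inf_le_left
  set Zs : Subgroup Q := (cen S).subgroupOf Q with hZs
  set Z'' : Subgroup Q := Zs.comap a.toMonoidHom with hZ''
  set K : Subgroup Q := fixPart S a with hKdef
  have hK : ∀ {y : Q}, y ∈ K ↔ y ∈ Zs ∧ a y ∈ Zs := Iff.rfl
  have hZsA : ∀ y : Q, y ∈ Zs ↔ (y : Ω) ∈ A := fun y => by
    show (y : Ω) ∈ cen S ↔ _
    rw [← hQZ]
    exact ⟨fun h => h.2, fun h => ⟨y.2, h⟩⟩
  have hidx : Zs.index = p := by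
    have hm := Subgroup.card_mul_index Zs
    rw [Nat.card_congr (Subgroup.subgroupOfEquivOfLe sh.cen_le).toEquiv, h.card_eq hx₀A hQS hx₀, hQZ,
      mul_comm p] at hm
    exact Nat.eq_of_mul_eq_mul_left Nat.card_pos hm
  have hidx'' : Z''.index = p := by
    rw [hZ'', Subgroup.index_comap_of_surjective _ a.surjective, hidx]
  -- elements of `U` outside `Z` move every element outside `A` by something outside `K`
  have hmove : ∀ (b : MulAut Q), b ∈ F.autGroup Q → Opposite S Q b → ∀ (g : Ω) (v : Q),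
      g ∈ cen2 S → g ∉ cen S → (v : Ω) ∉ A → ∀ hw : g * (v : Ω) * g⁻¹ * (v : Ω)⁻¹ ∈ Q,
        (⟨_, hw⟩ : Q) ∉ fixPart S b := by
    intro b hb hbo g v hg hgZ hv hw hmem
    apply hgZ
    rw [← hQZ]
    refine ⟨mem_of_fixPart h hF hQ hb hbo v.2 hv (sh.cen2_le hg) ?_ ⟨_, hmem, rfl⟩, sh.cen2_le hg⟩
    have := (sh.abelian hQZ).ge hg
    exact this.1
  obtain ⟨g, hg, hgZ⟩ : ∃ g ∈ cen2 S, g ∉ cen S := by
    by_contra hc
    push Not at hc
    have h1 := sh.card_cen2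
    have h2 : Nat.card (cen2 S) ≤ Nat.card (cen S) := Subgroup.card_le_of_le hc
    have h3 : Nat.card (cen S) < p * Nat.card (cen S) :=
      lt_mul_of_one_lt_left Nat.card_pos (Fact.out : p.Prime).one_lt
    omega
  have hgS : g ∈ S := (mem_cen2.1 hg).1
  have hgN : g ∈ normalizerIn S Q := ((sh.abelian hQZ).ge hg).1
  have hcw : ∀ y : Q, g * (y : Ω) * g⁻¹ * (y : Ω)⁻¹ ∈ wGrp S := fun y =>
    comm_mem_wGrp hgS (hQS y.2) ((mem_cen2.1 hg).2 y (hQS y.2))
  -- an element fixed by the opposite Sylow, outside `Z`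
  obtain ⟨v, hvZ'', hvZs⟩ : ∃ v ∈ Z'', v ∉ Zs := by
    by_contra hc
    push Not at hc
    have heq : Z'' = Zs := by
      refine Subgroup.eq_of_le_of_card_ge hc ?_
      have h1 := Subgroup.card_mul_index Zs
      have h2 := Subgroup.card_mul_index Z''
      rw [hidx] at h1
      rw [hidx''] at h2
      exact (Nat.eq_of_mul_eq_mul_right (Fact.out : p.Prime).pos (h1.trans h2.symm)).le
    have hw := hWZ (hcw ⟨x₀, hx₀⟩)
    refine hmove a ha hopp g ⟨x₀, hx₀⟩ hg hgZ hx₀A (sh.cen_le hw) (hK.2 ⟨hw, ?_⟩)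
    exact (heq.ge : Zs ≤ Z'') hw
  have hvA : (v : Ω) ∉ A := fun e => hvZs ((hZsA v).2 e)
  have hcomm : ∀ y z : Q, y * z = z * y := fun y z => Subtype.ext (hab _ y.2 _ z.2)
  let w : Q := ⟨g * (v : Ω) * g⁻¹ * (v : Ω)⁻¹, sh.cen_le (hWZ (hcw v))⟩
  have hwW : (w : Ω) ∈ wGrp S := hcw v
  have hwZ : w ∈ Zs := hWZ hwW
  have hwK : w ∉ K := hmove a ha hopp g v hg hgZ hvA w.2
  have hw1 : w ≠ 1 := fun e => hwK (e ▸ K.one_mem)
  set u : MulAut Q := conjAut hgN.2 with hudef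
  have huT : u ∈ Cfsg.autInducedBy S Q := conjAut_mem_autInducedBy hgN.2 hgS
  have huv : u v = w * v := Subtype.ext (by
    show g * (v : Ω) * g⁻¹ = g * (v : Ω) * g⁻¹ * (v : Ω)⁻¹ * v
    rw [inv_mul_cancel_right])
  have huZ : ∀ y ∈ Zs, u y = y := fun y hy => Subtype.ext (conj_fix hgS hy)
  -- powers of `w` exhaust `W`
  have hwgen : ∀ y : Q, (y : Ω) ∈ wGrp S → ∃ e : ℤ, y = w ^ e := by
    intro y hy
    have h1 : (⟨(w : Ω), hwW⟩ : wGrp S) ≠ 1 := fun e => hw1 (Subtype.ext (congrArg (fun t : wGrp S => (t : Ω)) e))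
    obtain ⟨e, he⟩ := Subgroup.mem_zpowers_iff.1 (mem_zpowers_of_prime_card hWc (g' := (⟨(y : Ω), hy⟩ : wGrp S)) h1)
    exact ⟨e, Subtype.ext (by simpa using (congrArg Subtype.val he).symm)⟩
  have hpZ'' : ∀ y ∈ Z'', ∀ k : Q, k ∈ K → a (y * k) ∈ Zs := fun y hy k hk => by
    rw [map_mul]; exact Zs.mul_mem hy (hK.1 hk).2
  -- the conjugate transvection
  obtain ⟨e, he⟩ := hwgen ⟨g * ((a w : Q) : Ω) * g⁻¹ * ((a w : Q) : Ω)⁻¹, sh.cen_le (hWZ (hcw (a w)))⟩ (hcw (a w))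
  set z : Q := a⁻¹ (w ^ e) with hzdef
  set l0 : MulAut Q := a⁻¹ * u * a with hl0
  have haz : a z = w ^ e := by rw [hzdef, MulAut.inv_def, MulEquiv.apply_symm_apply]
  have hzZ'' : z ∈ Z'' := by
    show a z ∈ Zs
    rw [haz]
    exact Zs.zpow_mem hwZ e
  have hl0fix : ∀ y ∈ Z'', l0 y = y := fun y hy => by
    rw [hl0, MulAut.mul_apply, MulAut.mul_apply, huZ (a y) hy, MulAut.inv_def, MulEquiv.symm_apply_apply]
  have hl0w : l0 w = w * z := by
    have h1 : u (a w) = w ^ e * a w := Subtype.ext (by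
      show g * ((a w : Q) : Ω) * g⁻¹ = ((w ^ e : Q) : Ω) * ((a w : Q) : Ω)
      rw [← congrArg Subtype.val he]
      simp)
    rw [hl0, MulAut.mul_apply, MulAut.mul_apply, h1, map_mul, ← hzdef, MulAut.inv_def,
      MulEquiv.symm_apply_apply, hcomm]
  have hzK : z ∉ K := by
    intro hzK
    have hawA : ((a w : Q) : Ω) ∉ A := fun e' => hwK (hK.2 ⟨hwZ, (hZsA _).2 e'⟩)
    have hinv : a⁻¹ w ∉ Zs := fun e' => by
      refine hmove a⁻¹ (Subgroup.inv_mem _ ha) hopp.inv g v hg hgZ hvA w.2 ?_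
      exact mem_fixPart.2 ⟨hwZ, e'⟩
    have hz' : (a⁻¹ w) ^ e ∈ Zs := by
      rw [← map_zpow]
      exact (hK.1 hzK).1
    have hpd : (p : ℤ) ∣ e := by
      haveI : Zs.Normal := ⟨fun n hn q => by rw [hcomm q n, mul_inv_cancel_right]; exact hn⟩
      have hord : orderOf ((a⁻¹ w : Q) : Q ⧸ Zs) = p := by
        refine orderOf_eq_prime ?_ fun e' => hinv ((QuotientGroup.eq_one_iff _).1 e')
        rw [← hidx]
        exact pow_card_eq_one'
      have h1 : ((a⁻¹ w : Q) : Q ⧸ Zs) ^ e = 1 := by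
        rw [← QuotientGroup.mk_zpow]
        exact (QuotientGroup.eq_one_iff _).2 hz'
      rw [← hord]
      exact orderOf_dvd_iff_zpow_eq_one.2 h1
    have hwe : (w : Ω) ^ e = 1 := by
      obtain ⟨t, rfl⟩ := hpd
      haveI : Finite (wGrp S) := finite_of_le (hWZ.trans inf_le_left)
      have h1 : (⟨(w : Ω), hwW⟩ : wGrp S) ^ (p : ℤ) = 1 := by
        rw [zpow_natCast, ← hWc]; exact pow_card_eq_one'
      have h2 : (w : Ω) ^ (p : ℤ) = 1 := by simpa using congrArg Subtype.val h1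
      rw [zpow_mul, h2, one_zpow]
    have hce := congrArg Subtype.val he
    rw [SubgroupClass.coe_zpow, hwe, mul_inv_eq_one, mul_inv_eq_iff_eq_mul] at hce
    exact hgZ (h.mem_cen_of_comm (hQS (a w).2) hawA (sh.cen2_le hg) hce)
  -- `K` has index `p` in `Zs` and in `Z''`
  have hKle : K ≤ Z'' := fun y hy => (hK.1 hy).2
  have hKZs : K ≤ Zs := fun y hy => (hK.1 hy).1
  have hKrel : ∀ L : Subgroup Q, K ≤ L → L.index = p → (∃ y ∈ L, y ∉ K) → K.relIndex L = p := by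
    intro L hKL hL hex
    have h1 : K.index ≤ p * p := by
      calc K.index = (Zs ⊓ Z'').index := rfl
        _ ≤ Zs.index * Z''.index := Subgroup.index_inf_le
        _ = p * p := by rw [hidx, hidx'']
    rw [← Subgroup.relIndex_mul_index hKL, hL] at h1
    have h2 : K.relIndex L ≤ p := Nat.le_of_mul_le_mul_right h1 (Fact.out : p.Prime).pos
    obtain ⟨n, hn⟩ := IsPGroup.iff_card.1 ((h.pgroup.to_le hQS).to_subgroup L)
    obtain ⟨j, -, hj⟩ := (Nat.dvd_prime_pow (Fact.out : p.Prime)).1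
      (hn ▸ (Subgroup.index_dvd_card (K.subgroupOf L)))
    have hj' : K.relIndex L = p ^ j := hj
    have hne1 : K.relIndex L ≠ 1 := fun e' => by
      obtain ⟨y, hy, hyK⟩ := hex
      exact hyK (Subgroup.relIndex_eq_one.1 e' hy)
    rcases j with - | - | j
    · exact absurd hj' (by simpa using hne1)
    · simpa using hj'
    · exfalso
      have hlt : p ^ 1 < p ^ (j + 1 + 1) := Nat.pow_lt_pow_right (Fact.out : p.Prime).one_lt (by omega)
      rw [pow_one] at hlt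
      omega
  have hdiv : ∀ L : Subgroup Q, K ≤ L → L.index = p → ∀ d ∈ L, d ∉ K → ∀ y ∈ L,
      ∃ n : ℕ, ∃ k ∈ K, y = d ^ n * k := by
    intro L hKL hL d hd hdK y hy
    haveI : (K.subgroupOf L).Normal := ⟨fun n hn q => by
      show ((q * n * q⁻¹ : L) : Q) ∈ K
      rw [show ((q * n * q⁻¹ : L) : Q) = n from by simp [hcomm (q : Q) n]]
      exact hn⟩
    have hc : Nat.card (L ⧸ K.subgroupOf L) = p := hKrel L hKL hL ⟨d, hd, hdK⟩
    have hd1 : ((⟨d, hd⟩ : L) : L ⧸ K.subgroupOf L) ≠ 1 := fun e' =>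
      hdK (Subgroup.mem_subgroupOf.1 ((QuotientGroup.eq_one_iff (⟨d, hd⟩ : L)).1 e'))
    obtain ⟨n, hn⟩ := Submonoid.mem_powers_iff _ _ |>.1 ((mem_powers_iff_mem_zpowers).2
      (mem_zpowers_of_prime_card hc (g' := ((⟨y, hy⟩ : L) : L ⧸ K.subgroupOf L)) hd1))
    rw [← QuotientGroup.mk_pow, QuotientGroup.eq] at hn
    refine ⟨n, (d ^ n)⁻¹ * y, ?_, by rw [mul_inv_cancel_left]⟩
    simpa [Subgroup.mem_subgroupOf] using hn
  obtain ⟨n, k', hk', hn⟩ := hdiv Z'' hKle hidx'' z hzZ'' hzK v⁻¹ (Z''.inv_mem hvZ'')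
  set l : MulAut Q := l0 ^ n with hldef
  have hlw : l w = w * (v⁻¹ * k'⁻¹) := by
    rw [hldef, pow_fix_mul hl0w (hl0fix z hzZ''), hn, mul_inv_cancel_right]
  have hlfix : ∀ y ∈ Z'', l y = y := fun y hy => by
    rw [hldef, pow_fix_mul (β := l0) (x := y) (z := 1) (by rw [hl0fix y hy, mul_one]) (map_one l0),
      one_pow, mul_one]
  set w0 : MulAut Q := u * l * u with hw0
  have hk'i : k'⁻¹ ∈ K := K.inv_mem hk'
  have hw0K : ∀ k ∈ K, w0 k = k := fun k hk => by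
    rw [hw0, MulAut.mul_apply, MulAut.mul_apply, huZ k (hK.1 hk).1, hlfix k (hKle hk), huZ k (hK.1 hk).1]
  letI : CommGroup Q := { (inferInstance : Group Q) with mul_comm := hcomm }
  have hw0v : w0 v = w * k'⁻¹ := by
    rw [hw0, MulAut.mul_apply, MulAut.mul_apply, huv, map_mul l, hlw, hlfix v hvZ'', map_mul u, map_mul u,
      map_mul u, map_inv u v, huv, huZ w hwZ, huZ _ (hKZs hk'i)]
    apply Additive.ofMul.injective
    simp only [ofMul_mul, ofMul_inv]
    abel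
  have hw0w : w0 w = v⁻¹ * k'⁻¹ := by
    rw [hw0, MulAut.mul_apply, MulAut.mul_apply, huZ w hwZ, hlw, map_mul u, map_mul u, map_inv u v, huv,
      huZ w hwZ, huZ _ (hKZs hk'i)]
    simp [mul_comm, mul_left_comm, mul_inv_rev]
  set η : MulAut Q := w0 * w0 with hη
  have hηK : ∀ k ∈ K, η k = k := fun k hk => by rw [hη, MulAut.mul_apply, hw0K k hk, hw0K k hk]
  have hηw : η w = w⁻¹ := by
    rw [hη, MulAut.mul_apply, hw0w, map_mul, map_inv, hw0v, hw0K _ hk'i]
    simp [mul_comm, mul_left_comm, mul_inv_rev]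
  have hηv : η v = v⁻¹ * (k'⁻¹ * k'⁻¹) := by
    rw [hη, MulAut.mul_apply, hw0v, map_mul, hw0w, hw0K _ hk'i, mul_assoc]
  have hZdec : ∀ y ∈ Zs, ∃ k ∈ K, ∃ i : ℕ, y = k * w ^ i := fun y hy => by
    obtain ⟨i, k, hk, e'⟩ := hdiv Zs hKZs hidx w hwZ hwK y hy
    exact ⟨k, hk, i, by rw [e', mul_comm]⟩
  have hηZ : ∀ y ∈ Zs, η y ∈ Zs := fun y hy => by
    obtain ⟨k, hk, i, rfl⟩ := hZdec y hy
    rw [map_mul, map_pow, hηK k hk, hηw]
    exact Zs.mul_mem (hKZs hk) (Zs.pow_mem (Zs.inv_mem hwZ) i)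
  have hgenQ : ∀ y : Q, ∃ j : ℤ, y * v ^ j ∈ Zs := fun y => by
    obtain ⟨j, hj⟩ := h.exists_rep (hQS v.2) hvA (hQS y.2)
    exact ⟨j, (hZsA _).2 (by simpa using hj)⟩
  have hηT : ∀ c ∈ Cfsg.autInducedBy S Q, η * c * η⁻¹ ∈ Cfsg.autInducedBy S Q := by
    intro c hc
    obtain ⟨g', hg', hgc⟩ := mem_autInducedBy_iff.1 hc
    have hcZ : ∀ y ∈ Zs, c y = y := fun y hy => Subtype.ext ((hgc y).trans (conj_fix hg' hy))
    set s : Q := c v * v⁻¹ with hs
    have hsW : (s : Ω) ∈ wGrp S := by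
      have e' : (s : Ω) = g' * (v : Ω) * g'⁻¹ * (v : Ω)⁻¹ := by
        rw [hs, Subgroup.coe_mul, Subgroup.coe_inv, hgc]
      rw [e']
      refine comm_mem_wGrp hg' (hQS v.2) (e' ▸ ?_)
      have hA1 : g' * (v : Ω) * g'⁻¹ * (v : Ω)⁻¹ ∈ A := by
        have hD : (commutator ↥S).map S.subtype ≤ A := by
          rw [h.commutator_eq (hQS v.2) hvA]
          exact Subgroup.map_subtype_le _
        apply hD
        rw [Subgroup.map_subtype_commutator, ← commutatorElement_def]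
        exact Subgroup.commutator_mem_commutator hg' (hQS v.2)
      exact hQZ.le ⟨s.2, e' ▸ hA1⟩
    obtain ⟨i, hi⟩ := hwgen s hsW
    have hcv : c v = s * v := by rw [hs, inv_mul_cancel_right]
    have hcomm' : η * c = c * η := by
      refine MulEquiv.ext fun y => ?_
      obtain ⟨j, hj⟩ := hgenQ y
      have e' : y = (y * v ^ j) * (v ^ j)⁻¹ := by rw [mul_inv_cancel_right]
      have hA1 : (η * c) (y * v ^ j) = (c * η) (y * v ^ j) := by
        show η (c (y * v ^ j)) = c (η (y * v ^ j))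
        rw [hcZ _ hj, hcZ _ (hηZ _ hj)]
      have hB1 : (η * c) v = (c * η) v := by
        show η (c v) = c (η v)
        rw [hcv, map_mul, hηv, hi, map_zpow, hηw, map_mul, map_inv, hcv,
          hcZ _ (Zs.mul_mem (hKZs hk'i) (hKZs hk'i)), hi, mul_inv_rev, inv_zpow]
        simp [mul_assoc, mul_comm, mul_left_comm]
      rw [e', map_mul (η * c), map_mul (c * η), hA1, map_inv (η * c), map_inv (c * η), map_zpow (η * c),
        map_zpow (c * η), hB1]
    rw [hcomm', mul_inv_cancel_right]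
    exact hc
  have huA : u ∈ F.autGroup Q := autInducedBy_le_autGroup F hQS huT
  have hlA : l ∈ F.autGroup Q :=
    Subgroup.pow_mem _ (Subgroup.mul_mem _ (Subgroup.mul_mem _ (Subgroup.inv_mem _ ha) huA) ha) n
  have hηA : η ∈ F.autGroup Q :=
    Subgroup.mul_mem _ (Subgroup.mul_mem _ (Subgroup.mul_mem _ huA hlA) huA)
      (Subgroup.mul_mem _ (Subgroup.mul_mem _ huA hlA) huA)
  obtain ⟨ψ, hψ, hψe⟩ := exists_extend h.pgroup hF hQ.2.1 hηA hηT
  have hQN := le_normalizerIn hQS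
  obtain ⟨β, hβ, hag⟩ := agree_all h huniq hF hψ
    ⟨g, hgN, v, hQN v.2, fun e' => hgZ (h.mem_cen_of_comm (hQS v.2) hvA (sh.cen2_le hg) e')⟩
  have hβη : ∀ (y : Q) (hy : y ∈ Zs), β ⟨y, hQS y.2⟩ = ⟨η y, hQS (η y).2⟩ := fun y hy => by
    refine Subtype.ext ?_
    show _ = ((η y : Q) : Ω)
    rw [← hψe y (hQN y.2)]
    exact ((hag ⟨y, hQN y.2⟩).2 hy).symm
  have hp2 : ∀ i : ℕ, (w⁻¹) ^ i = w ^ i → w ^ i = 1 := by
    intro i hi
    have h2 : (w ^ i) ^ 2 = 1 := by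
      rw [pow_two]
      nth_rewrite 2 [← hi]
      rw [inv_pow, mul_inv_cancel]
    obtain ⟨m, hm⟩ := (h.pgroup.to_le hQS) (w ^ i)
    rw [← orderOf_eq_one_iff]
    have h3 := orderOf_dvd_of_pow_eq_one h2
    have h4 := orderOf_dvd_of_pow_eq_one hm
    have hcop : Nat.Coprime 2 (p ^ m) :=
      Nat.Coprime.pow_right m ((Nat.coprime_primes Nat.prime_two (Fact.out : p.Prime)).2 (Ne.symm hp))
    exact Nat.dvd_one.1 (hcop.gcd_eq_one ▸ Nat.dvd_gcd h3 h4)
  have hβH : H1 S β := by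
    intro y hy
    obtain ⟨k, hk, i, hki⟩ := hZdec ⟨y, sh.cen_le hy⟩ hy
    have e1 : ((β y : S) : Ω) = ((η ⟨(y : Ω), sh.cen_le hy⟩ : Q) : Ω) :=
      congrArg Subtype.val (hβη ⟨(y : Ω), sh.cen_le hy⟩ hy)
    rw [e1, hki, map_mul, map_pow, hηK k hk, hηw]
    have e2 : ((k * w⁻¹ ^ i : Q) : Ω) * (y : Ω)⁻¹ = ((w⁻¹ ^ i * w⁻¹ ^ i : Q) : Ω) := by
      have e3 : (y : Ω) = ((k * w ^ i : Q) : Ω) := congrArg Subtype.val hki
      rw [e3, ← Subgroup.coe_inv, ← Subgroup.coe_mul]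
      congr 1
      simp [mul_comm, mul_left_comm, mul_inv_rev]
    rw [e2]
    simp only [Subgroup.coe_mul, SubgroupClass.coe_pow, Subgroup.coe_inv]
    exact (wGrp S).mul_mem (Subgroup.pow_mem _ ((wGrp S).inv_mem hwW) i) (Subgroup.pow_mem _ ((wGrp S).inv_mem hwW) i)
  refine ⟨le_antisymm ?_ ?_, ?_⟩
  · -- the fixed part of `a` is fixed by the group of automorphisms trivial on `Z/W`
    rintro _ ⟨k, hk, rfl⟩
    refine mem_k0.2 ⟨(hK.1 hk).1, fun γ hγ hγH => ?_⟩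
    set kS : S := ⟨(k : Ω), hQS k.2⟩ with hkS
    have hkc : (kS : Ω) ∈ cen S := (hK.1 hk).1
    set d : S := γ kS * kS⁻¹ with hd
    have hdW : (d : Ω) ∈ wGrp S := hγH kS hkc
    have hβW : ∀ y : S, (y : Ω) ∈ wGrp S → β y = y⁻¹ := by
      intro y hy
      obtain ⟨i, hi⟩ := hwgen ⟨y, sh.cen_le (hWZ hy)⟩ hy
      have e1 := hβη ⟨y, sh.cen_le (hWZ hy)⟩ (hWZ hy)
      refine Subtype.ext ?_
      rw [show β y = β ⟨(y : Ω), hQS (sh.cen_le (hWZ hy))⟩ from rfl, e1]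
      show ((η ⟨(y : Ω), sh.cen_le (hWZ hy)⟩ : Q) : Ω) = _
      have e2 : (y : Ω) = ((w ^ i : Q) : Ω) := congrArg Subtype.val hi
      rw [hi, map_zpow, hηw, inv_zpow, Subgroup.coe_inv, Subgroup.coe_inv, e2]
    have hβk : β kS = kS := by
      rw [hkS, hβη k (hK.1 hk).1]
      exact Subtype.ext (congrArg Subtype.val (hηK k hk) :)
    set θ : MulAut S := β * γ * β⁻¹ * γ⁻¹ with hθdef
    have hθfix : ∀ y : S, (y : Ω) ∈ wGrp S → θ y = y := by
      intro y hy
      have h1 : ((γ⁻¹ y : S) : Ω) ∈ wGrp S := mem_wGrp_map γ⁻¹ hy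
      have h2 : β⁻¹ (γ⁻¹ y) = (γ⁻¹ y)⁻¹ := by
        rw [show (β⁻¹ : MulAut S) = β.symm from rfl, MulEquiv.symm_apply_eq, map_inv, hβW _ h1, inv_inv]
      rw [hθdef, MulAut.mul_apply, MulAut.mul_apply, MulAut.mul_apply, h2, map_inv γ, MulAut.inv_def,
        MulEquiv.apply_symm_apply, map_inv, hβW y hy, inv_inv]
    have hθH : H1 S θ := by
      have hmul : ∀ γ₁ γ₂ : MulAut S, H1 S γ₁ → H1 S γ₂ → H1 S (γ₁ * γ₂) := fun γ₁ γ₂ h1 h2 y hy => by
        have := (wGrp S).mul_mem (h1 (γ₂ y) ((cen_map γ₂).2 hy)) (h2 y hy)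
        simpa [mul_assoc] using this
      have hinv : ∀ γ₁ : MulAut S, H1 S γ₁ → H1 S γ₁⁻¹ := fun γ₁ h1 y hy => by
        have hy' : ((γ₁⁻¹ y : S) : Ω) ∈ cen S := (cen_map γ₁⁻¹).2 hy
        have := (wGrp S).inv_mem (h1 _ hy')
        rw [MulAut.inv_def, MulEquiv.apply_symm_apply] at this
        simpa [MulAut.inv_def] using this
      exact hmul _ _ (hmul _ _ (hmul _ _ hβH hγH) (hinv _ hβH)) (hinv _ hγH)
    have hθk := trivial_of_unipotent h.pgroup hF hWc (θ := θ)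
      (Subgroup.mul_mem _ (Subgroup.mul_mem _ (Subgroup.mul_mem _ hβ hγ) (Subgroup.inv_mem _ hβ))
        (Subgroup.inv_mem _ hγ)) hθfix hθH (z := γ kS) ((cen_map γ).2 hkc)
    have hγk : γ kS = d * kS := by rw [hd, inv_mul_cancel_right]
    have hβinvk : β⁻¹ kS = kS := by rw [MulAut.inv_def, MulEquiv.symm_apply_eq, hβk]
    rw [hθdef, MulAut.mul_apply, MulAut.mul_apply, MulAut.mul_apply, show (γ⁻¹ : MulAut S) = γ.symm from rfl,
      MulEquiv.symm_apply_apply, hβinvk, hγk, map_mul, hβk, hβW d hdW, mul_right_cancel_iff] at hθk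
    have hd1 : d = 1 := by
      obtain ⟨m, hm⟩ := h.pgroup d
      rw [← orderOf_eq_one_iff]
      have h2 : d ^ 2 = 1 := by
        rw [pow_two]
        nth_rewrite 2 [← hθk]
        rw [mul_inv_cancel]
      have h3 := orderOf_dvd_of_pow_eq_one h2
      have h4 := orderOf_dvd_of_pow_eq_one hm
      have hcop : Nat.Coprime 2 (p ^ m) :=
        Nat.Coprime.pow_right m ((Nat.coprime_primes Nat.prime_two (Fact.out : p.Prime)).2 (Ne.symm hp))
      exact Nat.dvd_one.1 (hcop.gcd_eq_one ▸ Nat.dvd_gcd h3 h4)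
    show γ kS = kS
    rw [hγk, hd1, one_mul]
  · intro y hy
    obtain ⟨hyc, hfix⟩ := mem_k0.1 hy
    obtain ⟨k, hk, i, hki⟩ := hZdec ⟨y, sh.cen_le hyc⟩ hyc
    refine ⟨⟨y, sh.cen_le hyc⟩, ?_, rfl⟩
    have h1 : η ⟨y, sh.cen_le hyc⟩ = ⟨y, sh.cen_le hyc⟩ := by
      have h2 := hfix β hβ hβH
      rw [show (⟨y, hyc.1⟩ : S) = ⟨((⟨y, sh.cen_le hyc⟩ : Q) : Ω), hQS (sh.cen_le hyc)⟩ from rfl,
        hβη ⟨y, sh.cen_le hyc⟩ hyc] at h2
      exact Subtype.ext (congrArg Subtype.val h2 :)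
    rw [hki, map_mul, map_pow, hηK k hk, hηw, mul_left_cancel_iff] at h1
    rw [hki, hp2 i h1, mul_one]
    exact hk
  · have h1 := Subgroup.card_mul_index (K.subgroupOf Zs)
    rw [show (K.subgroupOf Zs).index = p from hKrel Zs hKZs hidx ⟨w, hwZ, hwK⟩,
      Nat.card_congr (Subgroup.subgroupOfEquivOfLe hKZs).toEquiv,
      Nat.card_congr (Subgroup.subgroupOfEquivOfLe sh.cen_le).toEquiv] at h1
    rw [Subgroup.card_map_of_injective Q.subtype_injective, ← h1, mul_comm]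

end CfsgLib.Fus.AbelianIndexP

namespace CfsgLib.Fus.AbelianIndexP

open Cfsg Cfsg.FusionSystem CfsgLib.Fus CfsgLib.Fusion.Alperin

variable {Ω : Type*} [Group Ω] {S A : Subgroup Ω} {p : ℕ} [Fact p.Prime] [Finite S]
  {F : Cfsg.FusionSystem S}

section
variable (h : Setting S A p)
  (huniq : ∀ B : Subgroup Ω, B ≤ S → (∀ u ∈ B, ∀ v ∈ B, u * v = v * u) → (B.subgroupOf S).index = p → B = A)
  (hF : F.IsSaturated p) {Q : Subgroup Ω} (hQ : F.IsEssential p Q) (hQA : Q ≠ A)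
  (hab : ∀ u ∈ Q, ∀ v ∈ Q, u * v = v * u)
include h huniq hF hQ hQA hab

/-- Every automorphism of an abelian essential subgroup is opposite or normalizes `Aut_S(Q)`. -/
theorem opposite_or_normalizes (d : MulAut Q) :
    Opposite S Q d ∨ ∀ c ∈ Cfsg.autInducedBy S Q, d * c * d⁻¹ ∈ Cfsg.autInducedBy S Q := by
  by_cases hopp : Opposite S Q d
  · exact Or.inl hopp
  right
  unfold Opposite at hopp
  push Not at hopp
  obtain ⟨c, hc, hdc, hci⟩ := hopp
  have hQS := hQ.1.1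
  haveI : Finite Q := finite_of_le hQS
  have sh := shape h huniq hF hQ hQA
  haveI : Finite (normalizerIn S Q) := finite_of_le (normalizerIn_le Q)
  let T := Cfsg.autInducedBy S Q
  have hqinn : ∀ q ∈ Q, ∀ y : Q, q * (y : Ω) * q⁻¹ = y := fun q hq y => by
    rw [hab q hq y y.2, mul_inv_cancel_right]
  let L : Subgroup Ω :=
    { carrier := {g | g ∈ normalizerIn S Q ∧ ∃ b ∈ T, (∀ y : Q, ((b y : Q) : Ω) = g * y * g⁻¹) ∧ d * b * d⁻¹ ∈ T}
      one_mem' := ⟨one_mem _, 1, one_mem _, fun y => by simp, by simp⟩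
      mul_mem' := by
        rintro g g' ⟨hg, b, hb, hbe, hbd⟩ ⟨hg', b', hb', hbe', hbd'⟩
        refine ⟨mul_mem hg hg', b * b', T.mul_mem hb hb', fun y => ?_, ?_⟩
        · rw [MulAut.mul_apply, hbe, hbe']; group
        · have := T.mul_mem hbd hbd'
          simpa [mul_assoc] using this
      inv_mem' := by
        rintro g ⟨hg, b, hb, hbe, hbd⟩
        refine ⟨inv_mem hg, b⁻¹, T.inv_mem hb, fun y => ?_, ?_⟩
        · have := hbe (b⁻¹ y)
          rw [MulAut.inv_def, MulEquiv.apply_symm_apply] at this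
          rw [MulAut.inv_def, this]; group
        · have := T.inv_mem hbd
          simpa [mul_assoc] using this }
  have hQL : Q ≤ L := fun q hq => ⟨le_normalizerIn hQS hq, 1, T.one_mem, fun y => (hqinn q hq y).symm,
    by simp [T.one_mem]⟩
  obtain ⟨g, hg, hgc⟩ := mem_autInducedBy_iff.1 hc
  have hgN : g ∈ normalizerIn S Q := ⟨hg, mem_normalizer_of_aut hgc⟩
  have hgL : g ∈ L := ⟨hgN, c, hc, hgc, hdc⟩
  have hgQ : g ∉ Q := fun e => hci (by
    rw [inn_eq_autInducedBy_self]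
    exact mem_autInducedBy_iff.2 ⟨g, e, hgc⟩)
  have hLN : L ≤ normalizerIn S Q := fun _ hx => hx.1
  have hLS : L ≤ S := hLN.trans (normalizerIn_le Q)
  have hcard := card_eq_mul_of_lt_of_le h.pgroup hLS hQL (fun e => hgQ (e ▸ hgL))
    ((Subgroup.card_le_of_le hLN).trans sh.card_normalizer.le)
  have hLeq : L = normalizerIn S Q :=
    Subgroup.eq_of_le_of_card_ge hLN (by rw [sh.card_normalizer, hcard])
  intro e he
  obtain ⟨k, hk, hke⟩ := mem_autInducedBy_iff.1 he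
  obtain ⟨-, b, -, hbe, hbd⟩ := hLeq.ge ⟨hk, mem_normalizer_of_aut hke⟩
  have : b = e := MulEquiv.ext fun y => Subtype.ext ((hbe y).trans (hke y).symm)
  rwa [this] at hbd

end

/-- An essential subgroup other than `A` is nonabelian or abelian. -/
theorem nonComm_or (Q : Subgroup Ω) : NonComm Q ∨ ∀ u ∈ Q, ∀ v ∈ Q, u * v = v * u := by
  by_cases hn : NonComm Q
  · exact Or.inl hn
  · right
    unfold NonComm at hn
    push Not at hn
    exact hn

/-- The centre has order `p` and some abelian subgroup `Z⟨x⟩` is essential. -/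
theorem exists_abelian_essential (h : Setting S A p)
    (huniq : ∀ B : Subgroup Ω, B ≤ S → (∀ u ∈ B, ∀ v ∈ B, u * v = v * u) → (B.subgroupOf S).index = p → B = A)
    (hF : F.IsSaturated p) (hp : p ≠ 2) (hcore : F.core = ⊥) (hAe : ¬ F.IsEssential p A) :
    ∃ Q, F.IsEssential p Q ∧ Q ≠ A ∧ (∀ u ∈ Q, ∀ v ∈ Q, u * v = v * u) ∧ Nat.card (cen S) = p := by
  have hneA : ∀ {R}, F.IsEssential p R → R ≠ A := fun hR e => hAe (e ▸ hR)
  have hSn : NonComm S := h.na
  have hcenS : cen S ≠ ⊥ := by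
    intro hbot
    obtain ⟨s, hs, t, ht, hst⟩ := h.na
    haveI : Nontrivial S := ⟨⟨⟨s, hs⟩, ⟨t, ht⟩, fun e => hst (by rw [show s = t from congrArg Subtype.val e])⟩⟩
    obtain ⟨⟨z, hz⟩, hz1⟩ := @exists_ne (Subgroup.center S) h.pgroup.center_nontrivial 1
    refine hz1 (Subtype.ext (Subtype.ext ?_))
    have : (z : Ω) ∈ cen S := mem_cen.2 ⟨z.2, fun u hu => congrArg Subtype.val (Subgroup.mem_center_iff.1 hz ⟨u, hu⟩)⟩
    rw [hbot] at this
    exact this
  have hcle : ∀ R, IsAlperinSubgroup F p R → cen S ≤ R := fun R hR => cen_le_of_centric hR.centric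
  obtain ⟨Q, hQ, hab⟩ : ∃ Q, F.IsEssential p Q ∧ ∀ u ∈ Q, ∀ v ∈ Q, u * v = v * u := by
    by_contra hc
    apply hcenS
    refine le_bot_iff.1 (hcore ▸ le_core (isNormal_criterion h.pgroup hF inf_le_left hcle ?_))
    intro R hR α hα y hy
    have hRn : NonComm R := by
      rcases hR.top_or_essential with rfl | he
      · exact hSn
      · exact (nonComm_or R).resolve_right fun hab => hc ⟨R, he, hab⟩
    obtain ⟨β, -, hag⟩ := agree_all h huniq hF ((mem_autGroup_iff F hR.centric.1).1 hα) hRn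
    exact (hag y).1.1 hy
  refine ⟨Q, hQ, hneA hQ, hab, ?_⟩
  obtain ⟨-, a, ha, hopp⟩ := exists_opposite h.pgroup hF hQ
  obtain ⟨hk0, hcard⟩ := fixPart_eq_k0 h huniq hF hp hQ (hneA hQ) hab ha hopp
  suffices k0 F = ⊥ by rw [hcard, hk0, this, Subgroup.card_bot, mul_one]
  refine le_bot_iff.1 (hcore ▸ le_core (isNormal_criterion h.pgroup hF (k0_le.trans inf_le_left)
    (fun R hR => k0_le.trans (hcle R hR)) ?_))
  intro R hR α hα y hy
  have hyc : (y : Ω) ∈ cen S := k0_le hy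
  have transport : ∀ {P : Subgroup Ω} {φ : P →* Ω}, φ ∈ F.Hom P → NonComm P → ∀ w : P, (w : Ω) ∈ k0 F →
      φ w ∈ k0 F := fun {P φ} hφ hP w hw => by
    obtain ⟨β, hβ, hag⟩ := agree_all h huniq hF hφ hP
    rw [(hag w).2 (k0_le hw)]
    exact k0_map hβ hw
  rcases nonComm_or R with hRn | hRab
  · exact transport ((mem_autGroup_iff F hR.centric.1).1 hα) hRn y hy
  rcases hR.top_or_essential with rfl | he
  · obtain ⟨u, hu, v, hv, huv⟩ := hSn
    exact absurd (hRab u hu v hv) huv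
  rcases opposite_or_normalizes h huniq hF he (hneA he) hRab α with hα' | hα'
  · obtain ⟨e1, -⟩ := fixPart_eq_k0 h huniq hF hp he (hneA he) hRab hα hα'
    obtain ⟨e2, -⟩ := fixPart_eq_k0 h huniq hF hp he (hneA he) hRab (Subgroup.inv_mem _ hα) hα'.inv
    obtain ⟨y', hy', hye⟩ := e1.ge hy
    obtain rfl : y' = y := Subtype.ext hye
    rw [← e2]
    refine ⟨α y', mem_fixPart.2 ⟨(mem_fixPart.1 hy').2, ?_⟩, rfl⟩
    rw [MulAut.inv_def, MulEquiv.symm_apply_apply]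
    exact (mem_fixPart.1 hy').1
  · obtain ⟨ψ, hψ, he'⟩ := exists_extend h.pgroup hF he.2.1 hα hα'
    have hRS := he.1.1
    have hRN := le_normalizerIn hRS
    obtain ⟨x, hxR, hxA⟩ := exists_outside h he (hneA he)
    have sh := shape h huniq hF he (hneA he)
    have hnn : NonComm (normalizerIn S R) := by
      obtain ⟨g, hg, hgZ⟩ : ∃ g ∈ cen2 S, g ∉ cen S := by
        by_contra hc
        push Not at hc
        haveI : Finite (cen S) := finite_of_le inf_le_left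
        have h1 : Nat.card (cen2 S) ≤ Nat.card (cen S) := Subgroup.card_le_of_le hc
        have h2 := sh.card_cen2
        have h3 : Nat.card (cen S) < p * Nat.card (cen S) :=
          lt_mul_of_one_lt_left Nat.card_pos (Fact.out : p.Prime).one_lt
        omega
      exact ⟨g, ((sh.abelian (abelian_inf h huniq hF he (hneA he) hRab)).ge hg).1, x, hRN hxR,
        fun e => hgZ (h.mem_cen_of_comm (hRS hxR) hxA (sh.cen2_le hg) e)⟩
    have := transport hψ hnn ⟨y, hRN y.2⟩ hy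
    rw [he'] at this
    exact this

end CfsgLib.Fus.AbelianIndexP
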